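import Cfsg.Agent.H801.FC.Lift

/-!
# S5764, B-C6U34: semilinear maps inducing elements of `S` (helper801)
-/

set_option autoImplicit false
set_option linter.unusedSectionVars false

namespace Cfsg.Agent.H801.FC

open Cfsg.Agent.H198.FC Cfsg.Agent.H961.FC
open Cfsg.Agent.H706.FC (Ah mem_Ah Sc)

universe u v

section

variable {K : Type u} [Field K] [Finite K] {V : Type v} [AddCommGroup V] [Module K V] [Module.Finite K V]

/-- the semilinear injection `g` induces `z` -/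
structure SemI (z : Equiv.Perm (R K V)) (g : V → V) (σ : K ≃+* K) : Prop where
  add : ∀ v w, g (v + w) = g v + g w
  smul : ∀ (a : K) v, g (a • v) = σ a • g v
  inj : Function.Injective g
  ind : ∀ (X : R K V) v, z X (g v) = g (X v)

theorem inv_app (x : (R K V)ˣ) (v : V) : ((x⁻¹ : (R K V)ˣ) : R K V) ((x : R K V) v) = v := by
  rw [← Module.End.mul_apply, Units.inv_mul, Module.End.one_apply]

theorem app_inv (x : (R K V)ˣ) (v : V) : (x : R K V) (((x⁻¹ : (R K V)ˣ) : R K V) v) = v := by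
  rw [← Module.End.mul_apply, Units.mul_inv, Module.End.one_apply]

theorem unit_injective (x : (R K V)ˣ) : Function.Injective (x : R K V) := fun v w h => by
  rw [← inv_app x v, h, inv_app]

theorem SemI.zero {z : Equiv.Perm (R K V)} {g : V → V} {σ : K ≃+* K} (h : SemI z g σ) : g 0 = 0 := by
  have h1 := h.add 0 0
  rw [add_zero] at h1
  exact left_eq_add.1 h1

theorem SemI.ne_zero {z : Equiv.Perm (R K V)} {g : V → V} {σ : K ≃+* K} (h : SemI z g σ) {v : V} (hv : v ≠ 0) :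
    g v ≠ 0 := fun h0 => hv (h.inj (by rw [h0, h.zero]))

theorem SemI.sum {z : Equiv.Perm (R K V)} {g : V → V} {σ : K ≃+* K} (h : SemI z g σ) {ι : Type*} (s : Finset ι)
    (f : ι → V) : g (∑ i ∈ s, f i) = ∑ i ∈ s, g (f i) := by
  classical
  induction s using Finset.induction_on with
  | empty => simpa using h.zero
  | insert i s hi ih => rw [Finset.sum_insert hi, Finset.sum_insert hi, h.add, ih]

theorem exists_semI (hV : 1 ≤ Module.finrank K V) {z : Equiv.Perm (R K V)} (hz : z ∈ RP K V) :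
    ∃ (g : V → V) (σ : K ≃+* K), SemI z g σ := by
  obtain ⟨g, ⟨h1, σ, h2⟩, h3⟩ := H277.FC.stmtSN K V hV z hz
  exact ⟨g, σ, h1, h2, g.injective, h3⟩

theorem SemI.conj {z : Equiv.Perm (R K V)} {g : V → V} {σ : K ≃+* K} (h : SemI z g σ) (x : (R K V)ˣ) :
    SemI (cj K V x * z * (cj K V x)⁻¹) (fun v => (x : R K V) (g (((x⁻¹ : (R K V)ˣ) : R K V) v))) σ where
  add v w := by
    show (x : R K V) (g (((x⁻¹ : (R K V)ˣ) : R K V) (v + w))) = _
    rw [map_add, h.add, map_add]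
  smul a v := by
    show (x : R K V) (g (((x⁻¹ : (R K V)ˣ) : R K V) (a • v))) = _
    rw [map_smul, h.smul, map_smul]
  inj v w hvw := by
    have h1 := h.inj (unit_injective x hvw)
    exact unit_injective x⁻¹ h1
  ind X v := by
    rw [← map_inv]
    show (cj K V x (z (cj K V x⁻¹ X))) ((x : R K V) (g (((x⁻¹ : (R K V)ˣ) : R K V) v))) = _
    rw [cj_apply, Module.End.mul_apply, Module.End.mul_apply, inv_app, h.ind, cj_apply, Module.End.mul_apply,
      Module.End.mul_apply, inv_inv, app_inv]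

theorem rel_of_comm {f : Equiv.Perm (R K V)} (hf : f ∈ RP K V) {y : (R K V)ˣ}
    (h : f * cj K V y = cj K V y * f) : ∃ c : K, f y = c • (y : R K V) := by
  obtain ⟨y', h1, -, h2⟩ := conj_RP hf y
  rw [h, mul_inv_cancel_right] at h2
  obtain ⟨c, hc⟩ := cj_eq_iff.1 h2.symm
  exact ⟨c, by rw [← h1, hc]⟩

theorem SemI.rel {z : Equiv.Perm (R K V)} {g : V → V} {σ : K ≃+* K} (h : SemI z g σ) (hz : z ∈ RP K V)
    {y : (R K V)ˣ} (hy : z * cj K V y = cj K V y * z) : ∃ c : K, ∀ v, g ((y : R K V) v) = c • (y : R K V) (g v) := by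
  obtain ⟨c, hc⟩ := rel_of_comm hz hy
  refine ⟨c, fun v => ?_⟩
  rw [← h.ind, hc, LinearMap.smul_apply]

theorem SemI.norm {A : Subgroup (Equiv.Perm (R K V))} {z : Equiv.Perm (R K V)} {g : V → V} {σ : K ≃+* K}
    (h : SemI z g σ) (hz : z ∈ RP K V) (hzA : ∀ f ∈ A, z * f * z⁻¹ ∈ A) {y : (R K V)ˣ} (hy : y ∈ Ah A) :
    ∃ y' ∈ Ah A, ∀ v, (y' : R K V) (g v) = g ((y : R K V) v) := by
  obtain ⟨y', h1, -, h2⟩ := conj_RP hz y
  refine ⟨y', ?_, fun v => ?_⟩
  · rw [mem_Ah, ← h2]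
    exact hzA _ hy
  · rw [h1, h.ind]

theorem SemI.norm' {A : Subgroup (Equiv.Perm (R K V))} {z : Equiv.Perm (R K V)} {g : V → V} {σ : K ≃+* K}
    (h : SemI z g σ) (hz : z ∈ RP K V) (hzA : ∀ f ∈ A, z⁻¹ * f * z ∈ A) {y : (R K V)ˣ} (hy : y ∈ Ah A) :
    ∃ y' ∈ Ah A, ∀ v, (y : R K V) (g v) = g ((y' : R K V) v) := by
  obtain ⟨y', h1, -, h2⟩ := conj_RP ((RP K V).inv_mem hz) y
  rw [inv_inv] at h2
  refine ⟨y', ?_, fun v => ?_⟩
  · rw [mem_Ah, ← h2]
    exact hzA _ hy
  · rw [← h.ind, h1]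
    congr 1
    exact (z.apply_symm_apply _).symm

/-- a scalar induces the identity -/
theorem SemI.eq_one {z : Equiv.Perm (R K V)} {g : V → V} {σ : K ≃+* K} (h : SemI z g σ) {ι : Type*} [Fintype ι]
    (e : Module.Basis ι K V) {c : K} (hc : c ≠ 0) (hσ : ∀ a, σ a = a) (he : ∀ i, g (e i) = c • e i) : z = 1 := by
  have h1 : ∀ v, g v = c • v := by
    intro v
    rw [← e.sum_repr v, h.sum, Finset.smul_sum]
    refine Finset.sum_congr rfl fun i _ => ?_
    rw [h.smul, hσ, he, smul_comm]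
  apply Equiv.ext
  intro X
  ext v
  have h2 := h.ind X (c⁻¹ • v)
  rw [h1 (c⁻¹ • v), smul_smul, mul_inv_cancel₀ hc, one_smul, h1 (X (c⁻¹ • v)), map_smul, smul_smul,
    mul_inv_cancel₀ hc, one_smul] at h2
  exact h2

/-- eigenvectors of diagonal maps -/
theorem eig_repr {ι : Type*} [Fintype ι] [DecidableEq ι] (e : Module.Basis ι K V) {y : R K V} {l : ι → K}
    (hy : ∀ i, y (e i) = l i • e i) {v : V} {c : K} (hv : y v = c • v) (i : ι) : (l i - c) * e.repr v i = 0 := by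
  have h1 : y v = ∑ i, (l i * e.repr v i) • e i := by
    conv_lhs => rw [← e.sum_repr v]
    rw [map_sum]
    refine Finset.sum_congr rfl fun i _ => ?_
    rw [map_smul, hy, smul_smul, mul_comm]
  have h2 : e.repr (y v) i = l i * e.repr v i := by
    rw [h1, e.repr_sum_self]
  have h3 : e.repr (y v) i = c * e.repr v i := by
    rw [hv, map_smul]
    rfl
  rw [sub_mul, ← h2, ← h3, sub_self]

/-- eigenvectors of a diagonal map with distinct eigenvalues -/
theorem eig_line {ι : Type*} [Fintype ι] [DecidableEq ι] (e : Module.Basis ι K V) {y : R K V} {l : ι → K}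
    (hl : Function.Injective l) (hy : ∀ i, y (e i) = l i • e i) {v : V} (hv0 : v ≠ 0) {c : K} (hv : y v = c • v) :
    ∃ i, l i = c ∧ ∃ d : K, d ≠ 0 ∧ v = d • e i := by
  have h1 : ∃ i, e.repr v i ≠ 0 := by
    by_contra hcon
    push Not at hcon
    apply hv0
    rw [← e.sum_repr v]
    exact Finset.sum_eq_zero fun i _ => by rw [hcon i, zero_smul]
  obtain ⟨i, hi⟩ := h1
  have h2 : l i = c := sub_eq_zero.1 ((mul_eq_zero.1 (eig_repr e hy hv i)).resolve_right hi)
  refine ⟨i, h2, e.repr v i, hi, ?_⟩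
  conv_lhs => rw [← e.sum_repr v]
  refine Finset.sum_eq_single i (fun j _ hj => ?_) (fun h => absurd (Finset.mem_univ i) h)
  have h3 : e.repr v j = 0 := by
    refine (mul_eq_zero.1 (eig_repr e hy hv j)).resolve_left fun h4 => hj (hl ?_)
    rw [sub_eq_zero.1 h4, h2]
  rw [h3, zero_smul]

end

end Cfsg.Agent.H801.FC
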