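import Cfsg.Agent.H801.FC.Fld
import Cfsg.Agent.H961.FC.C6Lift
import Cfsg.Agent.H412.FC.BBridge
import Cfsg.Agent.H706.FC.Base

/-!
# S5764, B-C6U34: the elements of `A` lift to `SU(V)` (helper801)
-/

set_option autoImplicit false
set_option linter.unusedSectionVars false

namespace Cfsg.Agent.H801.FC

open Cfsg.Agent.H198.FC Cfsg.Agent.H961.FC

universe u v

section

variable {K : Type u} [Field K] [Finite K] {V : Type v} [AddCommGroup V] [Module K V] [Module.Finite K V]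
  {b : Cl K V}

/-- similitudes -/
def Sml (b : Cl K V) (y : R K V) (μ : K) : Prop := ∀ v w, b.B (y v) (y w) = μ * b.B v w

theorem isom_iff_sml {y : R K V} : b.Isom y ↔ Sml b y 1 := by
  unfold Cl.Isom Sml
  simp only [one_mul]

theorem isom_iff_adj {y : (R K V)ˣ} : b.Isom (y : R K V) ↔ b.Adj (y : R K V) ((y⁻¹ : (R K V)ˣ) : R K V) := by
  have e : ∀ w, (y : R K V) (((y⁻¹ : (R K V)ˣ) : R K V) w) = w := by
    intro w
    rw [← Module.End.mul_apply, Units.mul_inv, Module.End.one_apply]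
  have e' : ∀ w, ((y⁻¹ : (R K V)ˣ) : R K V) ((y : R K V) w) = w := by
    intro w
    rw [← Module.End.mul_apply, Units.inv_mul, Module.End.one_apply]
  constructor
  · intro h v w
    rw [← h v, e]
  · intro h v w
    rw [h, e']

/-- the group `SU(V)` -/
def SUu (b : Cl K V) : Subgroup (R K V)ˣ where
  carrier := {y | LinearMap.det (y : R K V) = 1 ∧ b.Isom (y : R K V)}
  one_mem' := ⟨by rw [Units.val_one, map_one], fun v w => rfl⟩
  mul_mem' := by
    rintro x y ⟨hx, hx'⟩ ⟨hy, hy'⟩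
    refine ⟨by rw [Units.val_mul, map_mul, hx, hy, mul_one], fun v w => ?_⟩
    rw [Units.val_mul, Module.End.mul_apply, Module.End.mul_apply, hx', hy']
  inv_mem' := by
    rintro x ⟨hx, hx'⟩
    refine ⟨?_, fun v w => ?_⟩
    · have h4 : LinearMap.det (x : R K V) * LinearMap.det ((x⁻¹ : (R K V)ˣ) : R K V) = 1 := by
        rw [← map_mul, Units.mul_inv, map_one]
      rwa [hx, one_mul] at h4
    · have e : ∀ w, (x : R K V) (((x⁻¹ : (R K V)ˣ) : R K V) w) = w := by
        intro w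
        rw [← Module.End.mul_apply, Units.mul_inv, Module.End.one_apply]
      rw [← hx', e, e]

theorem mem_SUu {y : (R K V)ˣ} : y ∈ SUu b ↔ LinearMap.det (y : R K V) = 1 ∧ b.Isom (y : R K V) := Iff.rfl

/-- elements of `RB` normalize the image of `SU(V)` -/
theorem conj_SUu (hV : 1 ≤ Module.finrank K V) {f : Equiv.Perm (R K V)} (hf : f ∈ RB b) {y : (R K V)ˣ}
    (hy : y ∈ SUu b) : ∃ y' ∈ SUu b, f * cj K V y * f⁻¹ = cj K V y' := by
  obtain ⟨σ, hσ⟩ := det_RP H277.FC.stmtSN hV hf.1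
  obtain ⟨y', h1, h2, h3⟩ := conj_RP hf.1 y
  refine ⟨y', ⟨by rw [h1, hσ, hy.1, map_one], ?_⟩, h3⟩
  rw [isom_iff_adj, h1, h2, ← hf.2, ← isom_iff_adj]
  exact hy.2

/-- the unit `y` is a similitude if `cj y ∈ RB b` -/
theorem exists_mult [Nontrivial V] {y : (R K V)ˣ} (h : cj K V y ∈ RB b) : ∃ μ : K, μ ≠ 0 ∧ Sml b (y : R K V) μ := by
  have e : ∀ w, (y : R K V) (((y⁻¹ : (R K V)ˣ) : R K V) w) = w := by
    intro w
    rw [← Module.End.mul_apply, Units.mul_inv, Module.End.one_apply]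
  have e' : ∀ w, ((y⁻¹ : (R K V)ˣ) : R K V) ((y : R K V) w) = w := by
    intro w
    rw [← Module.End.mul_apply, Units.inv_mul, Module.End.one_apply]
  let g : Equiv.Perm V := ⟨(y : R K V), ((y⁻¹ : (R K V)ˣ) : R K V), e', e⟩
  obtain ⟨μ, hμ⟩ := H412.FC.isSim_of_adj b (f := cj K V y) h.2 (g := g) (σ := RingEquiv.refl K)
    (fun v w => map_add (y : R K V) v w) (fun a v => map_smul (y : R K V) a v)
    (fun X v => by
      show ((y : R K V) * X * ((y⁻¹ : (R K V)ˣ) : R K V)) ((y : R K V) v) = (y : R K V) (X v)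
      rw [Module.End.mul_apply, Module.End.mul_apply, e'])
  exact ⟨μ, hμ.ne, fun v w => hμ.form v w⟩

theorem tau_ne (hU : b.IsU) : ∃ a, b.τ a ≠ a := hU.1

theorem exists_B_ne [Nontrivial V] (b : Cl K V) : ∃ v w, b.B v w ≠ 0 := by
  obtain ⟨v, w, h⟩ := H412.FC.exists_one_form b
  exact ⟨v, w, by rw [h]; exact one_ne_zero⟩

theorem mult_fixed [Nontrivial V] (hU : b.IsU) {y : R K V} {μ : K} (h : Sml b y μ) : b.τ μ = μ := by
  obtain ⟨v, w, h0⟩ := exists_B_ne b
  have h1 := h w v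
  have h2 := congrArg b.τ h1
  rw [map_mul, ← hU.2, ← hU.2, h v w] at h2
  exact (mul_right_cancel₀ h0 h2).symm

theorem sml_smul {y : R K V} {μ : K} (h : Sml b y μ) (c : K) : Sml b (c • y) (c * b.τ c * μ) := by
  intro v w
  rw [LinearMap.smul_apply, LinearMap.smul_apply, b.smul_left, b.smul_right, h]
  ring

theorem sml_mul {y z : R K V} {μ ν : K} (h : Sml b y μ) (h' : Sml b z ν) : Sml b (y * z) (μ * ν) := by
  intro v w
  rw [Module.End.mul_apply, Module.End.mul_apply, h, h', mul_assoc]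

theorem sml_unique [Nontrivial V] {y : R K V} {μ ν : K} (h : Sml b y μ) (h' : Sml b y ν) : μ = ν := by
  obtain ⟨v, w, h0⟩ := exists_B_ne b
  have h1 := h v w
  rw [h' v w] at h1
  exact (mul_right_cancel₀ h0 h1).symm

/-- isometric multiples -/
theorem exists_isom [Nontrivial V] (hU : b.IsU) {y : (R K V)ˣ} (h : cj K V y ∈ RB b) :
    ∃ y' : (R K V)ˣ, b.Isom (y' : R K V) ∧ cj K V y' = cj K V y := by
  obtain ⟨μ, hμ0, hμ⟩ := exists_mult h
  have h1 := mult_fixed hU hμ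
  obtain ⟨a, ha0, ha⟩ := exists_nm b.invol hU.1 (c := μ⁻¹) (by rw [map_inv₀, h1]) (inv_ne_zero hμ0)
  refine ⟨smulU (Units.mk0 a ha0) y, ?_, cj_smulU _ _⟩
  rw [isom_iff_sml]
  have h2 := sml_smul hμ a
  rw [ha, inv_mul_cancel₀ hμ0] at h2
  exact h2

/-- the elements of `A` lift to `SU(V)` -/
theorem lift_SU (hU : b.IsU) {S A : Subgroup (Equiv.Perm (R K V))} {r a : ℕ} (hD : C6Data S A r a) (hS : S ≤ RB b) :
    ∀ f ∈ A, ∃ y : (R K V)ˣ, LinearMap.det (y : R K V) = 1 ∧ b.Isom (y : R K V) ∧ cj K V y = f := by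
  have hV : 1 ≤ Module.finrank K V := by rw [hD.2.2.1]; exact pow_pos hD.1.pos a
  have := nontrivial_of hD.1 hD.2.2.1
  have hAS : A ≤ S := hD.2.2.2.1
  let n := Module.finrank K V
  -- scalars of norm one
  let N1 : Subgroup Kˣ := {
    carrier := {k | (k : K) * b.τ k = 1}
    one_mem' := by
      show ((1 : Kˣ) : K) * b.τ ((1 : Kˣ) : K) = 1
      rw [Units.val_one, map_one, mul_one]
    mul_mem' := by
      intro x y hx hy
      have hx' : (x : K) * b.τ x = 1 := hx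
      have hy' : (y : K) * b.τ y = 1 := hy
      show ((x * y : Kˣ) : K) * b.τ ((x * y : Kˣ) : K) = 1
      rw [Units.val_mul, map_mul]
      linear_combination (y : K) * b.τ y * hx' + hy'
    inv_mem' := by
      intro x hx
      have hx' : (x : K) * b.τ x = 1 := hx
      show ((x⁻¹ : Kˣ) : K) * b.τ ((x⁻¹ : Kˣ) : K) = 1
      rw [Units.val_inv_eq_inv_val, map_inv₀, ← mul_inv, hx', inv_one] }
  let Q : Subgroup Kˣ := N1.map (powMonoidHom n : Kˣ →* Kˣ)
  have hcyc : IsCyclic (Kˣ ⧸ Q) := isCyclic_of_surjective (QuotientGroup.mk' Q) (QuotientGroup.mk'_surjective Q)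
  let U : Subgroup (R K V)ˣ := {
    carrier := {y | cj K V y ∈ A ∧ b.Isom (y : R K V)}
    one_mem' := ⟨by rw [map_one]; exact A.one_mem, fun v w => rfl⟩
    mul_mem' := by
      rintro x y ⟨hx, hx'⟩ ⟨hy, hy'⟩
      refine ⟨by rw [map_mul]; exact A.mul_mem hx hy, fun v w => ?_⟩
      rw [Units.val_mul, Module.End.mul_apply, Module.End.mul_apply, hx', hy']
    inv_mem' := by
      rintro x ⟨hx, hx'⟩
      refine ⟨by rw [map_inv]; exact A.inv_mem hx, fun v w => ?_⟩
      have e : ∀ w, (x : R K V) (((x⁻¹ : (R K V)ˣ) : R K V) w) = w := by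
        intro w
        rw [← Module.End.mul_apply, Units.mul_inv, Module.End.one_apply]
      rw [← hx', e, e] }
  have key := lift_generic hD (SUu b) (fun f hf y hy => conj_SUu hV (hS hf) hy) ((cj K V).comp U.subtype) (by
      apply le_antisymm
      · rintro - ⟨u, rfl⟩
        exact u.2.1
      · intro f hf
        obtain ⟨y, rfl⟩ := hD.2.2.2.2.1 hf
        obtain ⟨y', h1, h2⟩ := exists_isom hU (hS (hAS hf))
        exact ⟨⟨y', by rw [h2]; exact hf, h1⟩, h2⟩)
    ((QuotientGroup.mk' Q).comp ((Units.map (LinearMap.det : R K V →* K)).comp U.subtype)) (fun u hu => by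
      have h1 : Units.map (LinearMap.det : R K V →* K) u ∈ Q := (QuotientGroup.eq_one_iff _).1 hu
      obtain ⟨c, hc1, hc⟩ := h1
      have hc1' : (c : K) * b.τ c = 1 := hc1
      refine ⟨smulU c⁻¹ u, ⟨?_, ?_⟩, cj_smulU _ _⟩
      · rw [det_smulU]
        have h2 : (c : K) ^ n = LinearMap.det ((u : (R K V)ˣ) : R K V) := congrArg Units.val hc
        rw [← h2, Units.val_inv_eq_inv_val, inv_pow]
        exact inv_mul_cancel₀ (pow_ne_zero _ c.ne_zero)
      · rw [isom_iff_sml]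
        have h2 := sml_smul (isom_iff_sml.1 u.2.2) ((c⁻¹ : Kˣ) : K)
        have h3 : ((c⁻¹ : Kˣ) : K) * b.τ ((c⁻¹ : Kˣ) : K) * 1 = 1 := by
          rw [Units.val_inv_eq_inv_val, map_inv₀, ← mul_inv, hc1', inv_one, mul_one]
        rw [h3] at h2
        exact h2)
  intro f hf
  obtain ⟨y, hy, h⟩ := key f hf
  exact ⟨y, hy.1, hy.2, h⟩

end

end Cfsg.Agent.H801.FC
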