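import Cfsg.Agent.H801.FC.Com

/-!
# S5764, B-C6U34: the case `n = 3` (helper801)
-/

set_option autoImplicit false
set_option linter.unusedSectionVars false

namespace Cfsg.Agent.H801.FC

open Cfsg.Agent.H198.FC Cfsg.Agent.H961.FC
open Cfsg.Agent.H706.FC (Ah mem_Ah Sc)

universe u v

section gen

variable {K : Type u} [Field K] [Finite K] {V : Type v} [AddCommGroup V] [Module K V] [Module.Finite K V]
  {b : Cl K V}

/-- `v ↦ B(v, w)` -/
def fnl (b : Cl K V) (w : V) : V →ₗ[K] K where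
  toFun v := b.B v w
  map_add' v v' := b.add_left v v' w
  map_smul' a v := by rw [b.smul_left]; rfl

/-- isometries on a basis -/
theorem isom_of_basis {ι : Type*} [Fintype ι] (hU : b.IsU) (e : Module.Basis ι K V) {x : R K V}
    (h : ∀ i j, b.B (x (e i)) (x (e j)) = b.B (e i) (e j)) : b.Isom x := by
  have h1 : ∀ v j, b.B (x v) (x (e j)) = b.B v (e j) := by
    intro v j
    have h2 : (fnl b (x (e j))) ∘ₗ x = fnl b (e j) := e.ext fun i => h i j
    exact LinearMap.congr_fun h2 v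
  intro v w
  have h2 : (fnl b (x w)) ∘ₗ x = fnl b w := by
    refine e.ext fun i => ?_
    show b.B (x (e i)) (x w) = b.B (e i) w
    rw [hU.2 (x w) (x (e i)), h1, ← hU.2]
  exact LinearMap.congr_fun h2 v

theorem eq_zero_of_basis {ι : Type*} [Fintype ι] (e : Module.Basis ι K V) {w : V} (h : ∀ i, b.B (e i) w = 0) :
    w = 0 := by
  apply H412.FC.nondeg_right b
  intro v
  have h2 : fnl b w = 0 := e.ext fun i => h i
  exact LinearMap.congr_fun h2 v

theorem exists_unit_of_det {x : R K V} (h : LinearMap.det x = 1) : ∃ y : (R K V)ˣ, (y : R K V) = x := by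
  have h1 : IsUnit x := by
    rw [LinearMap.isUnit_iff_isUnit_det, h]
    exact isUnit_one
  exact h1

end gen

section three

variable {K : Type u} [Field K] [Finite K] {V : Type v} [AddCommGroup V] [Module K V] [Module.Finite K V]
  {b : Cl K V}

theorem om_rel {ω : K} (h1 : ω ≠ 1) (h3 : ω ^ 3 = 1) : 1 + ω + ω ^ 2 = 0 := by
  have h : (ω - 1) * (1 + ω + ω ^ 2) = 0 := by linear_combination h3
  exact (mul_eq_zero.1 h).resolve_left (sub_ne_zero.2 h1)

theorem om_ne {ω : K} (h3 : ω ^ 3 = 1) : ω ≠ 0 := by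
  rintro rfl
  norm_num at h3

theorem three_ne {ω : K} (h1 : ω ≠ 1) (h3 : ω ^ 3 = 1) : (3 : K) ≠ 0 := by
  intro h
  have h2 := om_rel h1 h3
  have h4 : (ω - 1) ^ 2 = 0 := by linear_combination h2 - ω * h
  exact h1 (sub_eq_zero.1 (pow_eq_zero_iff (two_ne_zero) |>.1 h4))

theorem om_inj {ω : K} (h1 : ω ≠ 1) (h3 : ω ^ 3 = 1) : Function.Injective fun i : Fin 3 => ω ^ (i : ℕ) := by
  have h0 := om_ne h3
  have h2 : ω ^ 2 ≠ 1 := by
    intro h
    apply h1
    have h4 := om_rel h1 h3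
    have h5 : ω * (ω ^ 2) = 1 := by linear_combination h3
    rw [h, mul_one] at h5
    exact h5
  have h4 : ω ≠ ω ^ 2 := by
    intro h
    apply h1
    have h5 : ω * (ω - 1) = 0 := by linear_combination - h
    exact sub_eq_zero.1 ((mul_eq_zero.1 h5).resolve_left h0)
  intro i j hij
  fin_cases i <;> fin_cases j
  · rfl
  · change ω ^ 0 = ω ^ 1 at hij
    rw [pow_zero, pow_one] at hij
    exact absurd hij.symm h1
  · change ω ^ 0 = ω ^ 2 at hij
    rw [pow_zero] at hij
    exact absurd hij.symm h2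
  · change ω ^ 1 = ω ^ 0 at hij
    rw [pow_zero, pow_one] at hij
    exact absurd hij h1
  · rfl
  · change ω ^ 1 = ω ^ 2 at hij
    rw [pow_one] at hij
    exact absurd hij h4
  · change ω ^ 2 = ω ^ 0 at hij
    rw [pow_zero] at hij
    exact absurd hij h2
  · change ω ^ 2 = ω ^ 1 at hij
    rw [pow_one] at hij
    exact absurd hij.symm h4
  · rfl

/-- `1, y, y²` are independent -/
theorem indep3 [Nontrivial V] {y w : (R K V)ˣ} {ω : K} (h1 : ω ≠ 1) (h3 : ω ^ 3 = 1)
    (hyw : (y : R K V) * w = ω • ((w : R K V) * y)) {p q r : K}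
    (h : p • (1 : R K V) + q • (y : R K V) + r • (y : R K V) ^ 2 = 0) : p = 0 := by
  have hy2 : (y : R K V) ^ 2 * w = ω ^ 2 • ((w : R K V) * (y : R K V) ^ 2) := by
    rw [pow_two, mul_assoc, hyw, mul_smul_comm, ← mul_assoc, hyw, smul_mul_assoc, smul_smul, mul_assoc, pow_two]
  have key : ∀ p q r : K, p • (1 : R K V) + q • (y : R K V) + r • (y : R K V) ^ 2 = 0 →
      p • (1 : R K V) + (q * ω) • (y : R K V) + (r * ω ^ 2) • (y : R K V) ^ 2 = 0 := by
    intro p q r h
    have h4 : (w : R K V) * (p • (1 : R K V) + (q * ω) • (y : R K V) + (r * ω ^ 2) • (y : R K V) ^ 2) = 0 := by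
      have h5 : (p • (1 : R K V) + q • (y : R K V) + r • (y : R K V) ^ 2) * w = 0 := by rw [h, zero_mul]
      rw [add_mul, add_mul, smul_mul_assoc, smul_mul_assoc, smul_mul_assoc, one_mul, hyw, hy2, smul_smul,
        smul_smul] at h5
      rw [mul_add, mul_add, mul_smul_comm, mul_smul_comm, mul_smul_comm, mul_one]
      exact h5
    have h6 := congrArg (fun X => ((w⁻¹ : (R K V)ˣ) : R K V) * X) h4
    simp only [mul_zero] at h6
    rwa [← mul_assoc, Units.inv_mul, one_mul] at h6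
  have h4 := key _ _ _ h
  have h5 := key _ _ _ h4
  have h6 : (3 * p) • (1 : R K V) = 0 := by
    have e : (3 * p) • (1 : R K V) = (p • (1 : R K V) + q • (y : R K V) + r • (y : R K V) ^ 2) +
        (p • (1 : R K V) + (q * ω) • (y : R K V) + (r * ω ^ 2) • (y : R K V) ^ 2) +
        (p • (1 : R K V) + (q * ω * ω) • (y : R K V) + (r * ω ^ 2 * ω ^ 2) • (y : R K V) ^ 2) -
        (q * (1 + ω + ω ^ 2)) • (y : R K V) - (r * (1 + ω + ω ^ 2 + (ω ^ 3 - 1) * ω)) • (y : R K V) ^ 2 := by
      module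
    rw [e, h, h4, h5, om_rel h1 h3, h3]
    simp
  have h7 := (smul_eq_zero.1 h6).resolve_right one_ne_zero
  exact (mul_eq_zero.1 h7).resolve_left (three_ne h1 h3)

theorem cube_eq [Nontrivial V] (hn : Module.finrank K V = 3) {y w : (R K V)ˣ} {ω : K} (h1 : ω ≠ 1) (h3 : ω ^ 3 = 1)
    (hyw : (y : R K V) * w = ω • ((w : R K V) * y)) {c : K} (hc : (y : R K V) ^ 3 = c • (1 : R K V))
    (hd : LinearMap.det (y : R K V) = 1) : (y : R K V) ^ 3 = 1 := by
  have hp := LinearMap.aeval_self_charpoly (y : R K V)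
  have hm : (LinearMap.charpoly (y : R K V)).coeff 3 = 1 := by
    have h4 := LinearMap.charpoly_monic (y : R K V)
    rw [Polynomial.Monic, Polynomial.leadingCoeff, LinearMap.charpoly_natDegree, hn] at h4
    exact h4
  rw [Polynomial.aeval_eq_sum_range, LinearMap.charpoly_natDegree, hn, Finset.sum_range_succ, Finset.sum_range_succ,
    Finset.sum_range_succ, Finset.sum_range_succ, Finset.sum_range_zero, hm, hc, pow_zero, pow_one, one_smul,
    zero_add] at hp
  have h4 : (LinearMap.charpoly (y : R K V)).coeff 0 + c = 0 := by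
    refine indep3 (q := (LinearMap.charpoly (y : R K V)).coeff 1) (r := (LinearMap.charpoly (y : R K V)).coeff 2)
      h1 h3 hyw ?_
    rw [← hp]
    module
  have h5 := LinearMap.det_eq_sign_charpoly_coeff (y : R K V)
  rw [hd, hn] at h5
  have h6 : c = 1 := by linear_combination h4 - h5
  rw [hc, h6, one_smul]

/-- data for `n = 3` -/
structure Fr3 (b : Cl K V) (A : Subgroup (Equiv.Perm (R K V))) (ω : K) (u w : (R K V)ˣ)
    (e : Module.Basis (Fin 3) K V) (β : K) : Prop where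
  o1 : ω ≠ 1
  o3 : ω ^ 3 = 1
  on : ω * b.τ ω = 1
  uA : u ∈ Ah A
  wA : w ∈ Ah A
  ue : ∀ i, (u : R K V) (e i) = ω ^ (i : ℕ) • e i
  we : ∀ i, (w : R K V) (e i) = e (i + 1)
  b0 : β ≠ 0
  bd : ∀ i, b.B (e i) (e i) = β
  bo : ∀ i j, i ≠ j → b.B (e i) (e j) = 0

theorem exists_fr3 (hU : b.IsU) {S A : Subgroup (Equiv.Perm (R K V))} {r a : ℕ} (hD : C6Data S A r a)
    (hn : Module.finrank K V = 3) (hS : S ≤ RB b) : ∃ ω u w e β, Fr3 b A ω u w e β := by
  have hnt := nontrivial_of hD.1 hD.2.2.1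
  have hl := lift_SU hU hD hS
  obtain ⟨hr, ha, hdim, hAS, hAI, hcard, hexp, hab, hsp, hnorm, hmin⟩ := hD
  have hr3 : r = 3 := by
    have h1 : r ∣ 3 := by
      rw [← hn, hdim]
      exact dvd_pow_self r (by omega)
    exact (Nat.prime_dvd_prime_iff_eq hr Nat.prime_three).1 h1
  subst hr3
  -- `u`
  obtain ⟨f, hf, hf1⟩ : ∃ f ∈ A, f ≠ 1 := by
    by_contra hcon
    push Not at hcon
    have h1 : A = ⊥ := by
      rw [eq_bot_iff]
      intro f hf
      rw [Subgroup.mem_bot]
      exact hcon f hf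
    rw [h1, Subgroup.card_bot] at hcard
    have h2 : 1 < 3 ^ (2 * a) := Nat.one_lt_pow (by omega) (by norm_num)
    omega
  obtain ⟨u, hud, hui, rfl⟩ := hl f hf
  have husc : ¬ Sc (u : R K V) := fun h => hf1 ((H706.FC.cj_eq_one_iff _).2 h)
  -- `w`
  obtain ⟨y, hy, huy⟩ := H706.FC.exists_not_comm hsp husc
  obtain ⟨w, hwd, hwi, hw⟩ := hl _ (mem_Ah.1 hy)
  have hwA : w ∈ Ah A := by rw [mem_Ah, hw]; exact hy
  obtain ⟨k, hk⟩ := cj_eq_iff.1 hw
  have huw : (u : R K V) * w ≠ (w : R K V) * u := by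
    intro h
    have hk0 : k ≠ 0 := by
      rintro rfl
      rw [zero_smul] at hk
      exact w.ne_zero hk
    rw [hk, mul_smul_comm, smul_mul_assoc] at h
    exact huy (smul_right_injective _ hk0 h)
  obtain ⟨ω, hω⟩ := H706.FC.exists_zeta (hab _ hf _ hwA)
  have hω1 : ω ≠ 1 := by
    rintro rfl
    rw [one_smul] at hω
    exact huw hω
  -- cubes
  have hcube : ∀ y ∈ Ah A, ∃ c : K, (y : R K V) ^ 3 = c • (1 : R K V) := by
    intro y hy
    have h1 : cj K V (y ^ 3) = 1 := by rw [map_pow]; exact hexp _ hy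
    obtain ⟨c, hc⟩ := cj_eq_one.1 h1
    exact ⟨c, by rw [← hc, Units.val_pow_eq_pow_val]⟩
  obtain ⟨cu, hcu⟩ := hcube u hf
  obtain ⟨cw, hcw⟩ := hcube w hwA
  have hω3 : ω ^ 3 = 1 := by
    have h1 : (u : R K V) ^ 3 * w = ω ^ 3 • ((w : R K V) * (u : R K V) ^ 3) := by
      have h2 : (u : R K V) ^ 2 * w = ω ^ 2 • ((w : R K V) * (u : R K V) ^ 2) := by
        rw [pow_two, mul_assoc, hω, mul_smul_comm, ← mul_assoc, hω, smul_mul_assoc, smul_smul, mul_assoc, pow_two]
      rw [pow_succ' (u : R K V), mul_assoc, h2, mul_smul_comm, ← mul_assoc, hω, smul_mul_assoc, smul_smul,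
        mul_assoc, ← pow_succ' (u : R K V), ← pow_succ]
    rw [hcu, smul_mul_assoc, one_mul, mul_smul_comm, mul_one, smul_smul] at h1
    have h2 := smul_right_inj' h1
    have hcu0 : cu ≠ 0 := by
      rintro rfl
      rw [zero_smul, ← Units.val_pow_eq_pow_val] at hcu
      exact (u ^ 3).ne_zero hcu
    apply mul_right_cancel₀ hcu0
    rw [← h2, one_mul]
  have hω0 := om_ne hω3
  have hωn : ω * b.τ ω = 1 := by
    have h1 := sml_mul (isom_iff_sml.1 hui) (isom_iff_sml.1 hwi)
    rw [hω] at h1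
    have h2 := sml_smul (sml_mul (isom_iff_sml.1 hwi) (isom_iff_sml.1 hui)) ω
    have h3 := sml_unique h1 h2
    linear_combination - h3
  have hu3 : (u : R K V) ^ 3 = 1 := cube_eq hn hω1 hω3 hω hcu hud
  have hw3 : (w : R K V) ^ 3 = 1 := by
    refine cube_eq hn (ω := ω ^ 2) (w := u) ?_ ?_ ?_ hcw hwd
    · intro h
      have h5 : ω * (ω ^ 2) = 1 := by linear_combination hω3
      rw [h, mul_one] at h5
      exact hω1 h5
    · rw [← pow_mul, mul_comm, pow_mul, hω3, one_pow]
    · rw [hω, smul_smul, ← pow_succ, hω3, one_smul]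
  -- `e 0`
  obtain ⟨v, hv⟩ : ∃ v, v + (u : R K V) v + (u : R K V) ((u : R K V) v) ≠ 0 := by
    by_contra hcon
    push Not at hcon
    apply one_ne_zero (α := K)
    refine indep3 (q := 1) (r := 1) hω1 hω3 hω ?_
    ext v
    simp only [one_smul, LinearMap.add_apply, Module.End.one_apply, LinearMap.zero_apply, pow_two,
      Module.End.mul_apply]
    exact hcon v
  set e0 := v + (u : R K V) v + (u : R K V) ((u : R K V) v) with he0
  have hu3' : ∀ v, (u : R K V) ((u : R K V) ((u : R K V) v)) = v := by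
    intro v
    have h1 := LinearMap.congr_fun hu3 v
    rw [pow_succ, pow_two, Module.End.mul_apply, Module.End.mul_apply, Module.End.one_apply] at h1
    exact h1
  have hw3' : ∀ v, (w : R K V) ((w : R K V) ((w : R K V) v)) = v := by
    intro v
    have h1 := LinearMap.congr_fun hw3 v
    rw [pow_succ, pow_two, Module.End.mul_apply, Module.End.mul_apply, Module.End.one_apply] at h1
    exact h1
  have hω' : ∀ v, (u : R K V) ((w : R K V) v) = ω • (w : R K V) ((u : R K V) v) := by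
    intro v
    have h1 := LinearMap.congr_fun hω v
    rw [Module.End.mul_apply, LinearMap.smul_apply, Module.End.mul_apply] at h1
    exact h1
  have hue0 : (u : R K V) e0 = e0 := by
    rw [he0, map_add, map_add, hu3']
    abel
  have hue1 : (u : R K V) ((w : R K V) e0) = ω • (w : R K V) e0 := by rw [hω', hue0]
  have hue2 : (u : R K V) ((w : R K V) ((w : R K V) e0)) = ω ^ 2 • (w : R K V) ((w : R K V) e0) := by
    rw [hω', hue1, map_smul, smul_smul, pow_two]
  have hw0 : ∀ v, v ≠ 0 → (w : R K V) v ≠ 0 := fun v hv h => hv (unit_injective w (by rw [h, map_zero]))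
  have hli : LinearIndependent K (![e0, (w : R K V) e0, (w : R K V) ((w : R K V) e0)] : Fin 3 → V) := by
    refine Module.End.eigenvectors_linearIndependent' (u : R K V) (fun i : Fin 3 => ω ^ (i : ℕ))
      (om_inj hω1 hω3) _ fun i => ?_
    rw [Module.End.hasEigenvector_iff, Module.End.mem_eigenspace_iff]
    fin_cases i
    · refine ⟨?_, hv⟩
      show (u : R K V) e0 = ω ^ 0 • e0
      rw [hue0, pow_zero, one_smul]
    · refine ⟨?_, hw0 _ hv⟩
      show (u : R K V) ((w : R K V) e0) = ω ^ 1 • (w : R K V) e0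
      rw [hue1, pow_one]
    · exact ⟨hue2, hw0 _ (hw0 _ hv)⟩
  set e := basisOfLinearIndependentOfCardEqFinrank hli (by rw [hn, Fintype.card_fin]) with he
  have hec : ∀ i, e i = (![e0, (w : R K V) e0, (w : R K V) ((w : R K V) e0)] : Fin 3 → V) i := by
    intro i
    rw [he, coe_basisOfLinearIndependentOfCardEqFinrank]
  have hue : ∀ i, (u : R K V) (e i) = ω ^ (i : ℕ) • e i := by
    intro i
    rw [hec]
    fin_cases i
    · show (u : R K V) e0 = ω ^ 0 • e0
      rw [hue0, pow_zero, one_smul]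
    · show (u : R K V) ((w : R K V) e0) = ω ^ 1 • (w : R K V) e0
      rw [hue1, pow_one]
    · exact hue2
  have hwe : ∀ i, (w : R K V) (e i) = e (i + 1) := by
    intro i
    rw [hec, hec]
    fin_cases i
    · rfl
    · rfl
    · exact hw3' e0
  have hbd : ∀ i, b.B (e i) (e i) = b.B (e 0) (e 0) := by
    have h1 : ∀ i, b.B (e (i + 1)) (e (i + 1)) = b.B (e i) (e i) := by
      intro i
      rw [← hwe, hwi]
    intro i
    fin_cases i
    · rfl
    · exact h1 0
    · exact (h1 1).trans (h1 0)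
  have hbo : ∀ i j, i ≠ j → b.B (e i) (e j) = 0 := by
    intro i j hij
    have h1 := hui (e i) (e j)
    rw [hue, hue, b.smul_left, b.smul_right, map_pow] at h1
    by_contra h0
    apply hij
    apply om_inj hω1 hω3
    show ω ^ (i : ℕ) = ω ^ (j : ℕ)
    have h2 : ω ^ (i : ℕ) * b.τ ω ^ (j : ℕ) = 1 := by
      apply mul_right_cancel₀ h0
      rw [one_mul, mul_assoc, h1]
    have h3 : ω ^ (j : ℕ) * b.τ ω ^ (j : ℕ) = 1 := by rw [← mul_pow, hωn, one_pow]
    have h4 : b.τ ω ^ (j : ℕ) ≠ 0 := fun h => by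
      rw [h, mul_zero] at h3
      exact zero_ne_one h3
    exact mul_right_cancel₀ h4 (h2.trans h3.symm)
  refine ⟨ω, u, w, e, b.B (e 0) (e 0), hω1, hω3, hωn, hf, hwA, hue, hwe, ?_, hbd, hbo⟩
  intro h0
  apply e.ne_zero 0
  refine eq_zero_of_basis (b := b) e fun i => ?_
  rcases eq_or_ne i 0 with rfl | hi
  · exact h0
  · exact hbo i 0 hi

end three

end Cfsg.Agent.H801.FC
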