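import Cfsg.Agent.H801.FC.U3

/-!
# S5764, B-C6U34: the case `n = 3`, conclusion (helper801)
-/

set_option autoImplicit false
set_option linter.unusedSectionVars false

namespace Cfsg.Agent.H801.FC

open Cfsg.Agent.H198.FC Cfsg.Agent.H961.FC
open Cfsg.Agent.H706.FC (Ah mem_Ah Sc)

universe u v

section three

variable {K : Type u} [Field K] [Finite K] {V : Type v} [AddCommGroup V] [Module K V] [Module.Finite K V]
  {b : Cl K V} {A : Subgroup (Equiv.Perm (R K V))} {ω : K} {u w : (R K V)ˣ}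
  {e : Module.Basis (Fin 3) K V} {β : K}

theorem semI_unit (y : (R K V)ˣ) : SemI (cj K V y) (y : R K V) (RingEquiv.refl K) where
  add v w := map_add (y : R K V) v w
  smul a v := map_smul (y : R K V) a v
  inj := unit_injective y
  ind X v := by rw [cj_apply, Module.End.mul_apply, Module.End.mul_apply, inv_app]

theorem coord3 {p0 p1 p2 q0 q1 q2 : K} (h : p0 • e 0 + p1 • e 1 + p2 • e 2 = q0 • e 0 + q1 • e 1 + q2 • e 2) :
    p0 = q0 ∧ p1 = q1 ∧ p2 = q2 := by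
  have h1 : ∑ i, (![p0, p1, p2] : Fin 3 → K) i • e i = ∑ i, (![q0, q1, q2] : Fin 3 → K) i • e i := by
    rw [Fin.sum_univ_three, Fin.sum_univ_three]
    exact h
  have h2 : ∀ i, (![p0, p1, p2] : Fin 3 → K) i = (![q0, q1, q2] : Fin 3 → K) i := by
    intro i
    rw [← e.repr_sum_self ![p0, p1, p2], h1, e.repr_sum_self]
  exact ⟨h2 0, h2 1, h2 2⟩

/-- semilinear maps commuting with `u`, `w` up to scalars -/
theorem shape3 (F : Fr3 b A ω u w e β) {z : Equiv.Perm (R K V)} {g : V → V} {σ : K ≃+* K} (hg : SemI z g σ) {l m : K}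
    (hu : ∀ v, g ((u : R K V) v) = l • (u : R K V) (g v)) (hw : ∀ v, g ((w : R K V) v) = m • (w : R K V) (g v)) :
    ∃ (c ζ : K) (i : Fin 3), c ≠ 0 ∧ ζ ^ 3 = 1 ∧ σ ω = ω ∧ ∀ k, g (e k) = (ζ ^ (k : ℕ) * c) • e (i + k) := by
  have h0 := hg.ne_zero (e.ne_zero 0)
  have hu0 := hu (e 0)
  rw [F.ue] at hu0
  change g (ω ^ 0 • e 0) = _ at hu0
  rw [pow_zero, one_smul] at hu0
  have hl0 : l ≠ 0 := by
    rintro rfl
    rw [zero_smul] at hu0
    exact h0 hu0
  have hu0' : (u : R K V) (g (e 0)) = l⁻¹ • g (e 0) := by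
    rw [hu0, smul_smul, inv_mul_cancel₀ hl0, one_smul, ← hu0]
  obtain ⟨i, hi, d, hd, hgd⟩ := eig_line e (om_inj F.o1 F.o3) F.ue h0 hu0'
  have hi' : l * ω ^ (i : ℕ) = 1 := by
    have hi2 : ω ^ (i : ℕ) = l⁻¹ := hi
    rw [hi2, mul_inv_cancel₀ hl0]
  have hg1 : g (e 1) = (m * d) • e (i + 1) := by
    have h1 := hw (e 0)
    rw [F.we, hgd, map_smul, F.we, smul_smul] at h1
    exact h1
  have hg2 : g (e 2) = (m ^ 2 * d) • e (i + 2) := by
    have h1 := hw (e 1)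
    rw [F.we, hg1, map_smul, F.we, smul_smul, add_assoc] at h1
    rw [pow_two, mul_assoc]
    exact h1
  have hm3 : m ^ 3 = 1 := by
    have h1 := hw (e 2)
    rw [F.we, hg2, map_smul, F.we, smul_smul, add_assoc] at h1
    have e1 : (2 : Fin 3) + 1 = 0 := rfl
    rw [e1, add_zero, hgd] at h1
    have h2 : d = m * (m ^ 2 * d) := smul_left_injective K (e.ne_zero i) h1
    apply mul_right_cancel₀ hd
    rw [one_mul]
    conv_rhs => rw [h2]
    ring
  refine ⟨d, m, i, hd, hm3, ?_, ?_⟩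
  · have h1 := hu (e 1)
    rw [F.ue] at h1
    change g (ω ^ 1 • e 1) = _ at h1
    rw [pow_one, hg.smul, hg1, map_smul, F.ue, smul_smul, smul_smul, smul_smul] at h1
    have hm0 : m ≠ 0 := om_ne hm3
    have h2 := smul_left_injective K (e.ne_zero (i + 1)) h1
    have h3 : σ ω = l * ω ^ ((i + 1 : Fin 3) : ℕ) := by
      apply mul_right_cancel₀ (mul_ne_zero hm0 hd)
      rw [h2]
      ring
    rw [h3]
    fin_cases i
    · change l * ω ^ 0 = 1 at hi'
      change l * ω ^ 1 = ω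
      linear_combination ω * hi'
    · change l * ω ^ 1 = 1 at hi'
      change l * ω ^ 2 = ω
      linear_combination ω * hi'
    · change l * ω ^ 2 = 1 at hi'
      change l * ω ^ 0 = ω
      linear_combination ω * hi' - l * F.o3
  · intro k
    fin_cases k
    · show g (e 0) = (m ^ 0 * d) • e (i + 0)
      rw [pow_zero, one_mul, add_zero, hgd]
    · show g (e 1) = (m ^ 1 * d) • e (i + 1)
      rw [pow_one, hg1]
    · exact hg2

/-- lifts of elements of `A` -/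
theorem shapeA (F : Fr3 b A ω u w e β) (hab : ∀ f ∈ A, ∀ g ∈ A, f * g = g * f) {y : (R K V)ˣ} (hy : y ∈ Ah A) :
    ∃ (c ζ : K) (i : Fin 3), c ≠ 0 ∧ ζ ^ 3 = 1 ∧ ∀ k, (y : R K V) (e k) = (ζ ^ (k : ℕ) * c) • e (i + k) := by
  obtain ⟨l, hl⟩ := (semI_unit y).rel (cj_mem_RP y) (hab _ hy _ F.uA)
  obtain ⟨m, hm⟩ := (semI_unit y).rel (cj_mem_RP y) (hab _ hy _ F.wA)
  obtain ⟨c, ζ, i, h1, h2, -, h3⟩ := shape3 F (semI_unit y) hl hm
  exact ⟨c, ζ, i, h1, h2, h3⟩

theorem main3 (hU : b.IsU) {S : Subgroup (Equiv.Perm (R K V))} (hS : S ≤ RB b) (hV : 1 ≤ Module.finrank K V)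
    (F : Fr3 b A ω u w e β) (hab : ∀ f ∈ A, ∀ g ∈ A, f * g = g * f) (hnorm : ∀ g ∈ S, ∀ f ∈ A, g * f * g⁻¹ ∈ A)
    {x : (R K V)ˣ} {α ρ : K} (hα : α ≠ 0) (hρ0 : ρ ≠ 0) (hτρ : b.τ ρ = ρ) (hρ1 : 1 + ρ * ρ ≠ 0)
    (hρ : ∀ σ : K ≃+* K, σ ρ = ρ → σ ω = ω → ∀ a, σ a = a)
    (hx0 : (x : R K V) (e 0) = α • e 0 - (ρ * b.τ α) • e 1)
    (hx1 : (x : R K V) (e 1) = (ρ * α) • e 0 + b.τ α • e 1) (hx2 : (x : R K V) (e 2) = e 2) :
    ∀ z ∈ S, (∀ g ∈ A, z * g = g * z) → cj K V x * z * (cj K V x)⁻¹ ∈ S → z = 1 := by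
  intro z hz hzA hZ
  have hτα : b.τ α ≠ 0 := (map_ne_zero b.τ).2 hα
  obtain ⟨g, σ, hg⟩ := exists_semI hV (hS hz).1
  obtain ⟨l, hl⟩ := hg.rel (hS hz).1 (y := u) (hzA _ F.uA)
  obtain ⟨m, hm⟩ := hg.rel (hS hz).1 (y := w) (hzA _ F.wA)
  obtain ⟨c, ζ, i, hc, hζ, hσω, hge⟩ := shape3 F hg hl hm
  have hh := hg.conj x
  obtain ⟨h, hhd⟩ : ∃ h : V → V, h = fun v => (x : R K V) (g (((x⁻¹ : (R K V)ˣ) : R K V) v)) := ⟨_, rfl⟩
  rw [← hhd] at hh
  have hhx : ∀ v, h ((x : R K V) v) = (x : R K V) (g v) := by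
    intro v
    rw [hhd]
    show (x : R K V) (g (((x⁻¹ : (R K V)ˣ) : R K V) ((x : R K V) v))) = _
    rw [inv_app]
  have hZA := hnorm _ hZ
  have hZA' : ∀ f ∈ A, (cj K V x * z * (cj K V x)⁻¹)⁻¹ * f * (cj K V x * z * (cj K V x)⁻¹) ∈ A := by
    intro f hf
    have h1 := hnorm _ (S.inv_mem hZ) f hf
    rwa [inv_inv] at h1
  have hζ0 : ζ ≠ 0 := om_ne hζ
  have h2 : h (e 2) = (ζ ^ 2 * c) • (x : R K V) (e (i + 2)) := by
    have h1 := hhx (e 2)
    rw [hx2, hge, map_smul] at h1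
    exact h1
  have hω2 : ω ^ 2 ≠ 1 := by
    intro h
    have h5 : ω * (ω ^ 2) = 1 := by linear_combination F.o3
    rw [h, mul_one] at h5
    exact F.o1 h5
  have hi : i = 0 := by
    by_contra hi0
    obtain ⟨p, q, hp, hq, hpq⟩ : ∃ p q : K, p ≠ 0 ∧ q ≠ 0 ∧ h (e 2) = p • e 0 + q • e 1 := by
      have hc2 : ζ ^ 2 * c ≠ 0 := mul_ne_zero (pow_ne_zero _ hζ0) hc
      fin_cases i
      · exact absurd rfl hi0
      · refine ⟨ζ ^ 2 * c * α, -(ζ ^ 2 * c * (ρ * b.τ α)), mul_ne_zero hc2 hα,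
          neg_ne_zero.2 (mul_ne_zero hc2 (mul_ne_zero hρ0 hτα)), ?_⟩
        rw [h2]
        change (ζ ^ 2 * c) • (x : R K V) (e 0) = _
        rw [hx0]
        module
      · refine ⟨ζ ^ 2 * c * (ρ * α), ζ ^ 2 * c * b.τ α, mul_ne_zero hc2 (mul_ne_zero hρ0 hα),
          mul_ne_zero hc2 hτα, ?_⟩
        rw [h2]
        change (ζ ^ 2 * c) • (x : R K V) (e 1) = _
        rw [hx1]
        module
    obtain ⟨y, hy, hyh⟩ := hh.norm (hS hZ).1 hZA F.uA
    obtain ⟨c', ζ', i', hc', hζ', hye⟩ := shapeA F hab hy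
    have hζ'0 : ζ' ≠ 0 := om_ne hζ'
    have e1 : (y : R K V) (h (e 2)) = ω ^ 2 • h (e 2) := by
      rw [hyh, F.ue, hh.smul, map_pow, hσω]
      rfl
    rw [hpq, map_add, map_smul, map_smul, hye, hye] at e1
    have key : c' = ω ^ 2 ∧ ζ' = 1 ∧ i' = 0 := by
      fin_cases i'
      · change p • (ζ' ^ 0 * c') • e 0 + q • (ζ' ^ 1 * c') • e 1 = _ at e1
        obtain ⟨k0, k1, -⟩ := coord3 (e := e) (p0 := p * c') (p1 := q * (ζ' * c')) (p2 := 0) (q0 := ω ^ 2 * p)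
          (q1 := ω ^ 2 * q) (q2 := 0) (by linear_combination (norm := module) e1)
        have hc1 : c' = ω ^ 2 := mul_left_cancel₀ hp (by linear_combination k0)
        refine ⟨hc1, ?_, rfl⟩
        apply mul_right_cancel₀ hc'
        apply mul_left_cancel₀ hq
        rw [k1, hc1]
        ring
      · exfalso
        change p • (ζ' ^ 0 * c') • e 1 + q • (ζ' ^ 1 * c') • e 2 = _ at e1
        obtain ⟨-, -, k2⟩ := coord3 (e := e) (p0 := 0) (p1 := p * c') (p2 := q * (ζ' * c')) (q0 := ω ^ 2 * p)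
          (q1 := ω ^ 2 * q) (q2 := 0) (by linear_combination (norm := module) e1)
        exact mul_ne_zero hq (mul_ne_zero hζ'0 hc') k2
      · exfalso
        change p • (ζ' ^ 0 * c') • e 2 + q • (ζ' ^ 1 * c') • e 0 = _ at e1
        obtain ⟨-, -, k2⟩ := coord3 (e := e) (p0 := q * (ζ' * c')) (p1 := 0) (p2 := p * c') (q0 := ω ^ 2 * p)
          (q1 := ω ^ 2 * q) (q2 := 0) (by linear_combination (norm := module) e1)
        exact mul_ne_zero hp hc' k2
    obtain ⟨rfl, rfl, rfl⟩ := key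
    have h3 : (y : R K V) = ω ^ 2 • (1 : R K V) := by
      refine e.ext fun k => ?_
      rw [hye, one_pow, one_mul, zero_add, LinearMap.smul_apply, Module.End.one_apply]
    have h4 := hyh (e 0)
    rw [h3, LinearMap.smul_apply, Module.End.one_apply, F.ue] at h4
    change ω ^ 2 • h (e 0) = h (ω ^ 0 • e 0) at h4
    rw [pow_zero, one_smul] at h4
    apply hω2
    refine smul_left_injective K (hh.ne_zero (e.ne_zero 0)) ?_
    show ω ^ 2 • h (e 0) = (1 : K) • h (e 0)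
    rw [h4, one_smul]
  subst hi
  have hge' : ∀ k, g (e k) = (ζ ^ (k : ℕ) * c) • e k := fun k => by rw [hge, zero_add]
  have hh2 : h (e 2) = (ζ ^ 2 * c) • e 2 := by
    rw [h2, zero_add, hx2]
  -- `h` is monomial
  obtain ⟨y, hy, hyh⟩ := hh.norm' (hS hZ).1 hZA' F.uA
  obtain ⟨c', ζ', i', hc', hζ', hye⟩ := shapeA F hab hy
  have hζ'0 : ζ' ≠ 0 := om_ne hζ'
  have hi' : i' = 0 := by
    have h3 : h (ω ^ 2 • e 2) = h ((y : R K V) (e 2)) := by
      rw [← hyh, hh.smul, map_pow, hσω, hh2, map_smul, F.ue, smul_comm]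
      rfl
    have h4 := hh.inj h3
    rw [hye] at h4
    have h5 : ζ' ^ 2 * c' ≠ 0 := mul_ne_zero (pow_ne_zero _ hζ'0) hc'
    fin_cases i'
    · rfl
    · exfalso
      change ω ^ 2 • e 2 = (ζ' ^ 2 * c') • e 0 at h4
      obtain ⟨k0, -, -⟩ := coord3 (e := e) (p0 := 0) (p1 := 0) (p2 := ω ^ 2) (q0 := ζ' ^ 2 * c')
          (q1 := 0) (q2 := 0) (by linear_combination (norm := module) h4)
      exact h5 k0.symm
    · exfalso
      change ω ^ 2 • e 2 = (ζ' ^ 2 * c') • e 1 at h4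
      obtain ⟨-, k0, -⟩ := coord3 (e := e) (p0 := 0) (p1 := 0) (p2 := ω ^ 2) (q0 := 0)
          (q1 := ζ' ^ 2 * c') (q2 := 0) (by linear_combination (norm := module) h4)
      exact h5 k0.symm
  subst hi'
  have hmono : ∀ k, ∃ (j : Fin 3) (m : K), m ≠ 0 ∧ h (e k) = m • e j := by
    intro k
    have h3 : (u : R K V) (h (e k)) = σ (ζ' ^ (k : ℕ) * c') • h (e k) := by
      rw [hyh, hye, hh.smul, zero_add]
    obtain ⟨j, -, d, hd, h4⟩ := eig_line e (om_inj F.o1 F.o3) F.ue (hh.ne_zero (e.ne_zero k)) h3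
    exact ⟨j, d, hd, h4⟩
  obtain ⟨j0, m0, hm0, hj0⟩ := hmono 0
  obtain ⟨j1, m1, hm1, hj1⟩ := hmono 1
  have eq0 := hhx (e 0)
  have eq1 := hhx (e 1)
  rw [hx0, hge', map_smul, hx0, sub_eq_add_neg, ← neg_smul, hh.add, hh.smul, hh.smul, hj0, hj1] at eq0
  rw [hx1, hge', map_smul, hx1, hh.add, hh.smul, hh.smul, hj0, hj1] at eq1
  change _ = (ζ ^ 0 * c) • (α • e 0 + (-(ρ * b.τ α)) • e 1) at eq0
  change _ = (ζ ^ 1 * c) • ((ρ * α) • e 0 + b.τ α • e 1) at eq1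
  have hn0 : c * α ≠ 0 := mul_ne_zero hc hα
  have hn1 : c * (-(ρ * b.τ α)) ≠ 0 := mul_ne_zero hc (neg_ne_zero.2 (mul_ne_zero hρ0 hτα))
  have hσα : σ α ≠ 0 := (map_ne_zero σ).2 hα
  have hστα : σ (b.τ α) ≠ 0 := (map_ne_zero σ).2 hτα
  have hτσρ : b.τ (σ ρ) = σ ρ := by rw [← H567.FC.aut_comm, hτρ]
  have hσρ0 : σ ρ ≠ 0 := (map_ne_zero σ).2 hρ0
  have hτω : b.τ ω = ω ^ 2 := by
    apply mul_left_cancel₀ (om_ne F.o3)
    rw [F.on]
    linear_combination - F.o3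
  have hτω' : b.τ ω ≠ ω := by
    intro h3
    rw [hτω] at h3
    have h4 : ω * (ω - 1) = 0 := by linear_combination h3
    exact F.o1 (sub_eq_zero.1 ((mul_eq_zero.1 h4).resolve_left (om_ne F.o3)))
  have hζ1 : b.τ ζ = ζ → ζ = 1 := by
    intro h3
    have h4 : (ζ - 1) * ((ζ - ω) * (ζ - ω ^ 2)) = 0 := by
      linear_combination hζ - F.o3 + (ζ - ζ ^ 2) * om_rel F.o1 F.o3 + ζ * F.o3
    rcases mul_eq_zero.1 h4 with h5 | h5
    · exact sub_eq_zero.1 h5
    rcases mul_eq_zero.1 h5 with h6 | h6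
    · exfalso
      rw [sub_eq_zero.1 h6] at h3
      exact hτω' h3
    · exfalso
      rw [sub_eq_zero.1 h6, map_pow, hτω] at h3
      have h7 : ω * (ω - 1) = 0 := by linear_combination - h3 + ω * F.o3
      exact F.o1 (sub_eq_zero.1 ((mul_eq_zero.1 h7).resolve_left (om_ne F.o3)))
  fin_cases j0 <;> fin_cases j1
  · exfalso
    change σ α • m0 • e 0 + σ (-(ρ * b.τ α)) • m1 • e 0 = _ at eq0
    obtain ⟨-, k1, -⟩ := coord3 (e := e) (p0 := σ α * m0 + σ (-(ρ * b.τ α)) * m1) (p1 := 0) (p2 := 0) (q0 := c * α)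
          (q1 := c * (-(ρ * b.τ α))) (q2 := 0) (by linear_combination (norm := module) eq0)
    exact hn1 k1.symm
  · -- diagonal case
    change σ α • m0 • e 0 + σ (-(ρ * b.τ α)) • m1 • e 1 = _ at eq0
    change σ (ρ * α) • m0 • e 0 + σ (b.τ α) • m1 • e 1 = _ at eq1
    obtain ⟨k0, k1, -⟩ := coord3 (e := e) (p0 := σ α * m0) (p1 := σ (-(ρ * b.τ α)) * m1) (p2 := 0) (q0 := c * α)
          (q1 := c * (-(ρ * b.τ α))) (q2 := 0) (by linear_combination (norm := module) eq0)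
    obtain ⟨k2, k3, -⟩ := coord3 (e := e) (p0 := σ (ρ * α) * m0) (p1 := σ (b.τ α) * m1) (p2 := 0)
          (q0 := ζ * c * (ρ * α)) (q1 := ζ * c * b.τ α) (q2 := 0) (by linear_combination (norm := module) eq1)
    rw [map_mul] at k2
    have h3 : σ ρ = ζ * ρ := by
      apply mul_right_cancel₀ hn0
      rw [← k0]
      linear_combination k2 - ζ * ρ * k0
    have h4 : b.τ ζ = ζ := by
      have h5 := congrArg b.τ h3
      rw [hτσρ, map_mul, hτρ, h3] at h5
      exact (mul_right_cancel₀ hρ0 h5).symm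
    have h5 := hζ1 h4
    rw [h5, one_mul] at h3
    have hσ := hρ σ h3 hσω
    refine hg.eq_one e hc hσ fun k => ?_
    rw [hge', h5, one_pow, one_mul]
  · exfalso
    change σ α • m0 • e 0 + σ (-(ρ * b.τ α)) • m1 • e 2 = _ at eq0
    obtain ⟨-, k1, -⟩ := coord3 (e := e) (p0 := σ α * m0) (p1 := 0) (p2 := σ (-(ρ * b.τ α)) * m1) (q0 := c * α)
          (q1 := c * (-(ρ * b.τ α))) (q2 := 0) (by linear_combination (norm := module) eq0)
    exact hn1 k1.symm
  · -- the other case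
    exfalso
    change σ α • m0 • e 1 + σ (-(ρ * b.τ α)) • m1 • e 0 = _ at eq0
    change σ (ρ * α) • m0 • e 1 + σ (b.τ α) • m1 • e 0 = _ at eq1
    obtain ⟨k0, k1, -⟩ := coord3 (e := e) (p0 := σ (-(ρ * b.τ α)) * m1) (p1 := σ α * m0) (p2 := 0) (q0 := c * α)
          (q1 := c * (-(ρ * b.τ α))) (q2 := 0) (by linear_combination (norm := module) eq0)
    obtain ⟨k2, k3, -⟩ := coord3 (e := e) (p0 := σ (b.τ α) * m1) (p1 := σ (ρ * α) * m0) (p2 := 0)
          (q0 := ζ * c * (ρ * α)) (q1 := ζ * c * b.τ α) (q2 := 0) (by linear_combination (norm := module) eq1)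
    rw [map_neg, map_mul] at k0
    rw [map_mul] at k3
    -- `- ρ σ(ρ) = ζ`
    have h3 : ζ = -(ρ * σ ρ) := by
      apply mul_right_cancel₀ (mul_ne_zero hc hτα)
      linear_combination σ ρ * k1 - k3
    have h4 : b.τ ζ = ζ := by rw [h3, map_neg, map_mul, hτρ, hτσρ]
    have h5 := hζ1 h4
    rw [h5] at h3
    have h6 : σ (σ ρ) = ρ := by
      have h7 := congrArg σ h3
      rw [map_one, map_neg, map_mul] at h7
      apply mul_left_cancel₀ hσρ0
      linear_combination h7 - h3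
    have h7 : ∀ a, σ (σ a) = a := hρ (σ.trans σ) h6 (by
      show σ (σ ω) = ω
      rw [hσω, hσω])
    have h8 := eq_id_of_sq b.invol hτω' hσω h7 ρ
    rw [h8] at h3
    exact hρ1 (by linear_combination h3)
  · exfalso
    change σ α • m0 • e 1 + σ (-(ρ * b.τ α)) • m1 • e 1 = _ at eq0
    obtain ⟨k0, -, -⟩ := coord3 (e := e) (p0 := 0) (p1 := σ α * m0 + σ (-(ρ * b.τ α)) * m1) (p2 := 0) (q0 := c * α)
          (q1 := c * (-(ρ * b.τ α))) (q2 := 0) (by linear_combination (norm := module) eq0)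
    exact hn0 k0.symm
  · exfalso
    change σ α • m0 • e 1 + σ (-(ρ * b.τ α)) • m1 • e 2 = _ at eq0
    obtain ⟨k0, -, -⟩ := coord3 (e := e) (p0 := 0) (p1 := σ α * m0) (p2 := σ (-(ρ * b.τ α)) * m1) (q0 := c * α)
          (q1 := c * (-(ρ * b.τ α))) (q2 := 0) (by linear_combination (norm := module) eq0)
    exact hn0 k0.symm
  · exfalso
    change σ α • m0 • e 2 + σ (-(ρ * b.τ α)) • m1 • e 0 = _ at eq0
    obtain ⟨-, k1, -⟩ := coord3 (e := e) (p0 := σ (-(ρ * b.τ α)) * m1) (p1 := 0) (p2 := σ α * m0) (q0 := c * α)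
          (q1 := c * (-(ρ * b.τ α))) (q2 := 0) (by linear_combination (norm := module) eq0)
    exact hn1 k1.symm
  · exfalso
    change σ α • m0 • e 2 + σ (-(ρ * b.τ α)) • m1 • e 1 = _ at eq0
    obtain ⟨k0, -, -⟩ := coord3 (e := e) (p0 := 0) (p1 := σ (-(ρ * b.τ α)) * m1) (p2 := σ α * m0) (q0 := c * α)
          (q1 := c * (-(ρ * b.τ α))) (q2 := 0) (by linear_combination (norm := module) eq0)
    exact hn0 k0.symm
  · exfalso
    change σ α • m0 • e 2 + σ (-(ρ * b.τ α)) • m1 • e 2 = _ at eq0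
    obtain ⟨k0, -, -⟩ := coord3 (e := e) (p0 := 0) (p1 := 0) (p2 := σ α * m0 + σ (-(ρ * b.τ α)) * m1) (q0 := c * α)
          (q1 := c * (-(ρ * b.τ α))) (q2 := 0) (by linear_combination (norm := module) eq0)
    exact hn0 k0.symm

/-- **[B-C6U34]**, `n = 3` -/
theorem bc6_u3 (K : Type u) [Field K] [Finite K] (V : Type v) [AddCommGroup V] [Module K V] [Module.Finite K V]
    (b : Cl K V) (hU : b.IsU) (hbig : b.Big) (hn : Module.finrank K V = 3) (S : Subgroup (Equiv.Perm (R K V)))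
    (hS : S ≤ RB b) (hsol : Group.IsSolvable S) (A : Subgroup (Equiv.Perm (R K V))) (r a : ℕ)
    (hD : C6Data S A r a) : FiveB b S := by
  classical
  obtain ⟨ω, u, w, e, β, F⟩ := exists_fr3 hU hD hn hS
  have hcard : Nat.card K ≠ 4 := by
    rcases hbig with ⟨-, -, h⟩ | ⟨h, -⟩
    · exact h hn
    · obtain ⟨c, hc⟩ := hU.1
      exact absurd (h.1 c) hc
  obtain ⟨ρ, hρ0, hτρ, hρ1, hρ⟩ := exists_rho b.invol F.o1 F.o3 F.on hcard
  obtain ⟨α, hα, hαn⟩ := exists_nm b.invol hU.1 (c := (1 + ρ * ρ)⁻¹) (by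
    rw [map_inv₀, map_add, map_mul, map_one, hτρ]) (inv_ne_zero hρ1)
  have hαn' : α * b.τ α * (1 + ρ * ρ) = 1 := by rw [hαn, inv_mul_cancel₀ hρ1]
  let M : Matrix (Fin 3) (Fin 3) K := !![α, ρ * α, 0; -(ρ * b.τ α), b.τ α, 0; 0, 0, 1]
  have hdet : LinearMap.det (Matrix.toLin e e M) = 1 := by
    rw [LinearMap.det_toLin, Matrix.det_fin_three]
    simp [M]
    linear_combination hαn'
  obtain ⟨x, hx⟩ := exists_unit_of_det hdet
  have hx0 : (x : R K V) (e 0) = α • e 0 - (ρ * b.τ α) • e 1 := by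
    rw [hx, Matrix.toLin_self, Fin.sum_univ_three]
    simp [M, sub_eq_add_neg]
  have hx1 : (x : R K V) (e 1) = (ρ * α) • e 0 + b.τ α • e 1 := by
    rw [hx, Matrix.toLin_self, Fin.sum_univ_three]
    simp [M]
  have hx2 : (x : R K V) (e 2) = e 2 := by
    rw [hx, Matrix.toLin_self, Fin.sum_univ_three]
    simp [M]
  have hx0' : (x : R K V) (e 0) = α • e 0 + (-(ρ * b.τ α)) • e 1 := by rw [hx0, sub_eq_add_neg, neg_smul]
  have b01 : b.B (e 0) (e 1) = 0 := F.bo 0 1 (by decide)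
  have b02 : b.B (e 0) (e 2) = 0 := F.bo 0 2 (by decide)
  have b10 : b.B (e 1) (e 0) = 0 := F.bo 1 0 (by decide)
  have b12 : b.B (e 1) (e 2) = 0 := F.bo 1 2 (by decide)
  have b20 : b.B (e 2) (e 0) = 0 := F.bo 2 0 (by decide)
  have b21 : b.B (e 2) (e 1) = 0 := F.bo 2 1 (by decide)
  have hxi : b.Isom (x : R K V) := by
    refine isom_of_basis hU e fun i j => ?_
    fin_cases i <;> fin_cases j
    · change b.B ((x : R K V) (e 0)) ((x : R K V) (e 0)) = b.B (e 0) (e 0)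
      rw [hx0']
      simp only [b.add_left, b.add_right, b.smul_left, b.smul_right, b01, b10, F.bd, map_neg, map_mul, hτρ, b.invol]
      linear_combination β * hαn'
    · change b.B ((x : R K V) (e 0)) ((x : R K V) (e 1)) = b.B (e 0) (e 1)
      rw [hx0', hx1]
      simp only [b.add_left, b.add_right, b.smul_left, b.smul_right, b01, b10, F.bd, map_mul, hτρ, b.invol]
      ring
    · change b.B ((x : R K V) (e 0)) ((x : R K V) (e 2)) = b.B (e 0) (e 2)
      rw [hx0', hx2]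
      simp only [b.add_left, b.smul_left, b02, b12]
      ring
    · change b.B ((x : R K V) (e 1)) ((x : R K V) (e 0)) = b.B (e 1) (e 0)
      rw [hx0', hx1]
      simp only [b.add_left, b.add_right, b.smul_left, b.smul_right, b01, b10, F.bd, map_neg, map_mul, hτρ, b.invol]
      ring
    · change b.B ((x : R K V) (e 1)) ((x : R K V) (e 1)) = b.B (e 1) (e 1)
      rw [hx1]
      simp only [b.add_left, b.add_right, b.smul_left, b.smul_right, b01, b10, F.bd, map_mul, hτρ, b.invol]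
      linear_combination β * hαn'
    · change b.B ((x : R K V) (e 1)) ((x : R K V) (e 2)) = b.B (e 1) (e 2)
      rw [hx1, hx2]
      simp only [b.add_left, b.smul_left, b02, b12]
      ring
    · change b.B ((x : R K V) (e 2)) ((x : R K V) (e 0)) = b.B (e 2) (e 0)
      rw [hx0', hx2]
      simp only [b.add_right, b.smul_right, b20, b21]
      ring
    · change b.B ((x : R K V) (e 2)) ((x : R K V) (e 1)) = b.B (e 2) (e 1)
      rw [hx1, hx2]
      simp only [b.add_right, b.smul_right, b20, b21]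
      ring
    · change b.B ((x : R K V) (e 2)) ((x : R K V) (e 2)) = b.B (e 2) (e 2)
      rw [hx2]
  exact fiveB_of_lift hD hsol (lift_SU hU hD hS) x (by rw [hx]; exact hdet) hxi
    (main3 hU hS (by omega) F hD.2.2.2.2.2.2.2.1 hD.2.2.2.2.2.2.2.2.2.1 hα hρ0 hτρ hρ1 hρ hx0 hx1 hx2)

end three

end Cfsg.Agent.H801.FC
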