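import Cfsg.Agent.H801.FC.U3b

/-!
# S5764, B-C6U34: the case `n = 4`, quadruples (helper801)
-/

set_option autoImplicit false
set_option linter.unusedSectionVars false

namespace Cfsg.Agent.H801.FC

open Cfsg.Agent.H198.FC Cfsg.Agent.H961.FC
open Cfsg.Agent.H706.FC (Ah mem_Ah Sc)

universe u v

theorem mat_prod {K : Type*} [Field K] {M : Matrix (Fin 4) (Fin 4) K} {c : K}
    (hMM : M * M = c • (1 : Matrix (Fin 4) (Fin 4) K)) :
    M.charpoly * (-M).charpoly = ((Polynomial.X ^ 2 - Polynomial.C c) ^ 2) ^ 2 := by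
  have h1 : M.charmatrix * (-M).charmatrix =
      (Polynomial.X ^ 2 - Polynomial.C c) • (1 : Matrix (Fin 4) (Fin 4) (Polynomial K)) := by
    have hM : M.charmatrix = (Polynomial.X : Polynomial K) • (1 : Matrix (Fin 4) (Fin 4) (Polynomial K)) -
        M.map Polynomial.C := by
      rw [Matrix.charmatrix, Matrix.smul_one_eq_diagonal]
      rfl
    have hM' : (-M).charmatrix = (Polynomial.X : Polynomial K) • (1 : Matrix (Fin 4) (Fin 4) (Polynomial K)) +
        M.map Polynomial.C := by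
      rw [Matrix.charmatrix, Matrix.smul_one_eq_diagonal, map_neg, sub_neg_eq_add]
      rfl
    have h2 : M.map (Polynomial.C : K → Polynomial K) * M.map (Polynomial.C : K → Polynomial K) =
        (Polynomial.C c : Polynomial K) • (1 : Matrix (Fin 4) (Fin 4) (Polynomial K)) := by
      have h3 := Matrix.map_mul (f := (Polynomial.C : K →+* Polynomial K)) (L := M) (M := M)
      rw [hMM] at h3
      have h4 : (M.map (Polynomial.C : K → Polynomial K)) * M.map (Polynomial.C : K → Polynomial K) =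
        (c • (1 : Matrix (Fin 4) (Fin 4) K)).map (Polynomial.C : K → Polynomial K) := h3.symm
      rw [h4]
      ext i j
      by_cases hij : i = j
      · simp [hij]
      · simp [hij]
    rw [hM, hM', sub_mul, mul_add, mul_add, h2, smul_mul_assoc, one_mul, mul_smul_comm, mul_one, smul_mul_assoc,
      one_mul, smul_smul, sub_smul, pow_two]
    abel
  rw [Matrix.charpoly, Matrix.charpoly, ← Matrix.det_mul, h1, Matrix.det_smul, Matrix.det_one, mul_one,
    Fintype.card_fin, ← pow_mul]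

theorem mat_sq {K : Type*} [Field K] {M W W' : Matrix (Fin 4) (Fin 4) K} {c : K} (hWW' : W * W' = 1)
    (hW'W : W' * W = 1) (hMM : M * M = c • (1 : Matrix (Fin 4) (Fin 4) K)) (hMW : M * W = -(W * M)) (hdet : M.det = 1)
    (h2 : (2 : K) ≠ 0) : c * c = 1 := by
  have hprod := mat_prod hMM
  have hneg : W' * (M * W) = -M := by
    rw [hMW, mul_neg, ← mul_assoc, hW'W, one_mul]
  have hchar : (-M).charpoly = M.charpoly := by
    rw [← hneg, Matrix.charpoly_mul_comm, mul_assoc, hWW', mul_one]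
  rw [hchar, ← pow_two] at hprod
  have hcoef := Matrix.det_eq_sign_charpoly_coeff M
  rw [hdet, Fintype.card_fin] at hcoef
  have hmon : ((Polynomial.X ^ 2 - Polynomial.C c) ^ 2 : Polynomial K).Monic :=
    (Polynomial.monic_X_pow_sub_C c (by norm_num)).pow 2
  rcases sq_eq_sq_iff_eq_or_eq_neg.1 hprod with h | h
  · rw [h, Polynomial.coeff_zero_eq_eval_zero] at hcoef
    simp only [Polynomial.eval_pow, Polynomial.eval_sub, Polynomial.eval_X, Polynomial.eval_C] at hcoef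
    linear_combination - hcoef
  · exfalso
    have h3 : M.charpoly.leadingCoeff = 1 := M.charpoly_monic
    rw [h, Polynomial.leadingCoeff_neg, hmon.leadingCoeff] at h3
    apply h2
    linear_combination - h3

section four

variable {K : Type u} [Field K] [Finite K] {V : Type v} [AddCommGroup V] [Module K V] [Module.Finite K V]
  {b : Cl K V} {A : Subgroup (Equiv.Perm (R K V))}

/-- `p q = ε q p` -/
def Sg (s : K) (p q : R K V) : Prop := p * q = s • (q * p)

theorem Sg.symm {s : K} {p q : R K V} (h : Sg s p q) (hs : s * s = 1) : Sg s q p := by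
  unfold Sg at *
  rw [h, smul_smul, hs, one_smul]

theorem Sg.mul_right {s t : K} {p q r : R K V} (h : Sg s p q) (h' : Sg t p r) : Sg (s * t) p (q * r) := by
  unfold Sg at *
  rw [← mul_assoc, h, smul_mul_assoc, mul_assoc, h', mul_smul_comm, smul_smul, mul_assoc]

theorem Sg.mul_left {s t : K} {p q r : R K V} (h : Sg s p r) (h' : Sg t q r) : Sg (s * t) (p * q) r := by
  unfold Sg at *
  rw [mul_assoc, h', mul_smul_comm, ← mul_assoc, h, smul_mul_assoc, smul_smul, mul_assoc, mul_comm t s]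

theorem Sg.smul_left {s : K} {p q : R K V} (h : Sg s p q) (c : K) : Sg s (c • p) q := by
  unfold Sg at *
  rw [smul_mul_assoc, h, mul_smul_comm, smul_comm]

theorem Sg.smul_right {s : K} {p q : R K V} (h : Sg s p q) (c : K) : Sg s p (c • q) := by
  unfold Sg at *
  rw [mul_smul_comm, h, smul_mul_assoc, smul_comm]

theorem Sg.refl (p : R K V) : Sg (1 : K) p p := by
  unfold Sg
  rw [one_smul]

theorem Sg.app {s : K} {p q : R K V} (h : Sg s p q) (v : V) : p (q v) = s • q (p v) := by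
  have h1 := LinearMap.congr_fun h v
  rw [Module.End.mul_apply, LinearMap.smul_apply, Module.End.mul_apply] at h1
  exact h1

theorem sg_of [Nontrivial V] (hc : ∀ f ∈ A, ∀ g ∈ A, f * g = g * f) (hs : ∀ f ∈ A, f ^ 2 = 1) {x y : (R K V)ˣ}
    (hx : x ∈ Ah A) (hy : y ∈ Ah A) : Sg (1 : K) (x : R K V) y ∨ Sg (-1 : K) (x : R K V) y := by
  obtain ⟨ζ, hζ⟩ := H706.FC.exists_zeta (hc _ hx _ hy)
  obtain ⟨c, hcx⟩ := H706.FC.exists_sq (hs _ hx)
  have h1 := H706.FC.zeta_sq hζ hcx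
  rcases mul_self_eq_one_iff.1 h1 with rfl | rfl
  · exact Or.inl hζ
  · exact Or.inr hζ

/-- the determinant of a lift -/
theorem sq_cases (hn : Module.finrank K V = 4) (h2 : (2 : K) ≠ 0) {y w : (R K V)ˣ}
    (hyw : Sg (-1 : K) (y : R K V) w) {c : K} (hc : (y : R K V) * y = c • (1 : R K V))
    (hd : LinearMap.det (y : R K V) = 1) : c = 1 ∨ c = -1 := by
  classical
  let B := Module.finBasisOfFinrankEq K V hn
  refine mul_self_eq_one_iff.1 (mat_sq (M := LinearMap.toMatrix B B (y : R K V))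
    (W := LinearMap.toMatrix B B (w : R K V)) (W' := LinearMap.toMatrix B B ((w⁻¹ : (R K V)ˣ) : R K V)) ?_ ?_ ?_ ?_ ?_
    h2)
  · rw [← LinearMap.toMatrix_mul, Units.mul_inv, LinearMap.toMatrix_one]
  · rw [← LinearMap.toMatrix_mul, Units.inv_mul, LinearMap.toMatrix_one]
  · rw [← LinearMap.toMatrix_mul, hc, map_smul, LinearMap.toMatrix_one]
  · have h1 : (y : R K V) * w = -((w : R K V) * y) := by
      have h3 := hyw
      unfold Sg at h3
      rw [neg_smul, one_smul] at h3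
      exact h3
    rw [← LinearMap.toMatrix_mul, ← LinearMap.toMatrix_mul, h1, map_neg]
  · rw [LinearMap.det_toMatrix]
    exact hd

theorem smulU_mem {y : (R K V)ˣ} (hy : y ∈ Ah A) (c : Kˣ) : smulU c y ∈ Ah A := by
  rw [mem_Ah, cj_smulU]
  exact hy

theorem r_eq_two {S : Subgroup (Equiv.Perm (R K V))} {r a : ℕ} (hD : C6Data S A r a)
    (hn : Module.finrank K V = 4) : r = 2 ∧ Nat.card A = 16 ∧ ∀ f ∈ A, f ^ 2 = 1 := by
  obtain ⟨hr, ha, hdim, -, -, hcard, hexp, -⟩ := hD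
  have hr2 : r = 2 := by
    have h1 : r ∣ 2 ^ 2 := by
      rw [show (2 : ℕ) ^ 2 = 4 by norm_num, ← hn, hdim]
      exact dvd_pow_self r (by omega)
    exact (Nat.prime_dvd_prime_iff_eq hr Nat.prime_two).1 (hr.dvd_of_dvd_pow h1)
  subst hr2
  refine ⟨rfl, ?_, hexp⟩
  rw [hcard, mul_comm, pow_mul, ← hdim, hn]
  norm_num

/-- normalized lifts -/
theorem norm_lift (hU : b.IsU) {S : Subgroup (Equiv.Perm (R K V))} {r a : ℕ} (hD : C6Data S A r a) (hS : S ≤ RB b)
    (hn : Module.finrank K V = 4) {ι : K} (hι : ι * ι = -1) {y : (R K V)ˣ} (hy : y ∈ Ah A) (hysc : ¬ Sc (y : R K V)) :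
    ∃ y' ∈ Ah A, (∃ k : K, k ≠ 0 ∧ (y' : R K V) = k • (y : R K V)) ∧ ¬ Sc (y' : R K V) ∧ (y' : R K V) * y' = 1 ∧
      (Sml b (y' : R K V) 1 ∨ Sml b (y' : R K V) (ι * b.τ ι)) := by
  have hnt := nontrivial_of hD.1 hD.2.2.1
  obtain ⟨rfl, -, hs⟩ := r_eq_two hD hn
  obtain ⟨y0, hd, hi, h0⟩ := lift_SU hU hD hS _ (mem_Ah.1 hy)
  have hab := hD.2.2.2.2.2.2.2.1
  have hsp := hD.2.2.2.2.2.2.2.2.1
  obtain ⟨k, hk⟩ := cj_eq_iff.1 h0
  have hk0 : k ≠ 0 := by
    rintro rfl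
    rw [zero_smul] at hk
    exact y0.ne_zero hk
  have hy0 : y0 ∈ Ah A := by rw [mem_Ah, h0]; exact hy
  have hsc0 : ¬ Sc (y0 : R K V) := by
    intro h
    apply hysc
    rw [← H706.FC.cj_eq_one_iff] at h ⊢
    rw [← h0, h]
  obtain ⟨h2, w, hw, hyw⟩ := H706.FC.exists_anti hsp hab hs hy0 hsc0
  have hyw' : Sg (-1 : K) (y0 : R K V) w := by
    unfold Sg
    rw [hyw, neg_smul, one_smul]
  obtain ⟨c, hc⟩ := H706.FC.exists_sq (hs _ hy0)
  rcases sq_cases hn h2 hyw' hc hd with rfl | rfl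
  · exact ⟨y0, hy0, ⟨k, hk0, hk⟩, hsc0, by rw [hc, one_smul], Or.inl (isom_iff_sml.1 hi)⟩
  · have hι0 : ι ≠ 0 := by
      rintro rfl
      rw [mul_zero] at hι
      exact one_ne_zero (α := K) (by linear_combination hι)
    refine ⟨smulU (Units.mk0 ι hι0) y0, smulU_mem hy0 _, ⟨ι * k, mul_ne_zero hι0 hk0, ?_⟩, ?_, ?_, Or.inr ?_⟩
    · show ι • (y0 : R K V) = _
      rw [hk, smul_smul]
    · rw [← H706.FC.cj_eq_one_iff, cj_smulU, H706.FC.cj_eq_one_iff]
      exact hsc0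
    · show (ι • (y0 : R K V)) * (ι • (y0 : R K V)) = 1
      rw [smul_mul_smul_comm, hc, hι, smul_smul]
      simp
    · have h3 := sml_smul (isom_iff_sml.1 hi) ι
      rw [mul_one] at h3
      exact h3

/-- two commuting anticommuting pairs of involutions -/
structure PQ (A : Subgroup (Equiv.Perm (R K V))) (ua ub uc ud : (R K V)ˣ) : Prop where
  aA : ua ∈ Ah A
  bA : ub ∈ Ah A
  cA : uc ∈ Ah A
  dA : ud ∈ Ah A
  a2 : (ua : R K V) * ua = 1
  b2 : (ub : R K V) * ub = 1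
  c2 : (uc : R K V) * uc = 1
  d2 : (ud : R K V) * ud = 1
  ab : Sg (1 : K) (ua : R K V) ub
  ac : Sg (-1 : K) (ua : R K V) uc
  ad : Sg (1 : K) (ua : R K V) ud
  bc : Sg (1 : K) (ub : R K V) uc
  bd : Sg (-1 : K) (ub : R K V) ud
  cd : Sg (1 : K) (uc : R K V) ud

theorem neg_one_sq' : (-1 : K) * (-1) = 1 := by norm_num

/-- adjusting a lift to commute with an anticommuting pair -/
theorem adjust [Nontrivial V] (hc : ∀ f ∈ A, ∀ g ∈ A, f * g = g * f) (hs : ∀ f ∈ A, f ^ 2 = 1) {ua uc y : (R K V)ˣ}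
    (ha : ua ∈ Ah A) (hcA : uc ∈ Ah A) (hy : y ∈ Ah A) (hac : Sg (-1 : K) (ua : R K V) uc) :
    ∃ t : (R K V)ˣ, (t = 1 ∨ t = ua ∨ t = uc ∨ t = ua * uc) ∧ Sg (1 : K) (ua : R K V) (y * t : (R K V)ˣ) ∧
      Sg (1 : K) (uc : R K V) (y * t : (R K V)ˣ) := by
  have hca : Sg (-1 : K) (uc : R K V) ua := hac.symm neg_one_sq'
  have e1 : (-1 : K) * (-1) = 1 := neg_one_sq'
  rcases sg_of hc hs ha hy with h1 | h1 <;> rcases sg_of hc hs hcA hy with h2 | h2
  · refine ⟨1, Or.inl rfl, ?_, ?_⟩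
    · rw [mul_one]; exact h1
    · rw [mul_one]; exact h2
  · refine ⟨ua, Or.inr (Or.inl rfl), ?_, ?_⟩
    · have h3 := h1.mul_right (Sg.refl (ua : R K V))
      rwa [one_mul] at h3
    · have h3 := h2.mul_right hca
      rwa [e1] at h3
  · refine ⟨uc, Or.inr (Or.inr (Or.inl rfl)), ?_, ?_⟩
    · have h3 := h1.mul_right hac
      rwa [e1] at h3
    · have h3 := h2.mul_right (Sg.refl (uc : R K V))
      rwa [one_mul] at h3
  · refine ⟨ua * uc, Or.inr (Or.inr (Or.inr rfl)), ?_, ?_⟩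
    · have h3 := h1.mul_right ((Sg.refl (ua : R K V)).mul_right hac)
      rwa [one_mul, e1] at h3
    · have h3 := h2.mul_right (hca.mul_right (Sg.refl (uc : R K V)))
      rwa [mul_one, e1] at h3

theorem not_sc [Nontrivial V] {y w : (R K V)ˣ} (h2 : (2 : K) ≠ 0) (h : Sg (-1 : K) (y : R K V) w) :
    ¬ Sc (w : R K V) := by
  rintro ⟨c, hc⟩
  unfold Sg at h
  rw [hc, mul_smul_comm, mul_one, smul_mul_assoc, one_mul, smul_smul] at h
  have h3 := smul_right_inj' h
  have hc0 : c = 0 := by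
    have h4 : (2 : K) * c = 0 := by linear_combination h3
    exact (mul_eq_zero.1 h4).resolve_left h2
  rw [hc0, zero_smul] at hc
  exact w.ne_zero hc

theorem exists_PQ (hU : b.IsU) {S : Subgroup (Equiv.Perm (R K V))} {r a : ℕ} (hD : C6Data S A r a) (hS : S ≤ RB b)
    (hn : Module.finrank K V = 4) {ι : K} (hι : ι * ι = -1) (h2 : (2 : K) ≠ 0) :
    ∃ ua ub uc ud : (R K V)ˣ, PQ A ua ub uc ud ∧
      (Sml b (ua : R K V) 1 ∨ Sml b (ua : R K V) (ι * b.τ ι)) ∧
      (Sml b (ub : R K V) 1 ∨ Sml b (ub : R K V) (ι * b.τ ι)) ∧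
      (Sml b (uc : R K V) 1 ∨ Sml b (uc : R K V) (ι * b.τ ι)) ∧
      (Sml b (ud : R K V) 1 ∨ Sml b (ud : R K V) (ι * b.τ ι)) := by
  have hnt := nontrivial_of hD.1 hD.2.2.1
  obtain ⟨hr2, hcard, hs⟩ := r_eq_two hD hn
  have hab := hD.2.2.2.2.2.2.2.1
  have hsp := hD.2.2.2.2.2.2.2.2.1
  have hAI := hD.2.2.2.2.1
  -- `ua`
  obtain ⟨f, hf, hf1⟩ : ∃ f ∈ A, f ≠ 1 := by
    by_contra hcon
    push Not at hcon
    have h1 : A = ⊥ := by
      rw [eq_bot_iff]
      intro f hf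
      rw [Subgroup.mem_bot]
      exact hcon f hf
    rw [h1, Subgroup.card_bot] at hcard
    omega
  obtain ⟨y0, rfl⟩ := hAI hf
  obtain ⟨ua, haA, -, hasc, ha2, hma⟩ := norm_lift hU hD hS hn hι (y := y0) hf
    (fun h => hf1 ((H706.FC.cj_eq_one_iff _).2 h))
  -- `uc`
  obtain ⟨-, w, hw, haw⟩ := H706.FC.exists_anti hsp hab hs haA hasc
  have haw' : Sg (-1 : K) (ua : R K V) w := by
    unfold Sg
    rw [haw, neg_smul, one_smul]
  obtain ⟨uc, hcA, ⟨k1, -, hk1⟩, -, hc2, hmc⟩ := norm_lift hU hD hS hn hι hw (not_sc h2 haw')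
  have hac : Sg (-1 : K) (ua : R K V) uc := by
    rw [hk1]
    exact haw'.smul_right k1
  -- `ub`
  obtain ⟨g, hg, hg1, hga, hgc, hgac⟩ : ∃ g ∈ A, g ≠ 1 ∧ g ≠ cj K V ua ∧ g ≠ cj K V uc ∧ g ≠ cj K V (ua * uc) := by
    classical
    by_contra hcon
    push Not at hcon
    have h1 : (A : Set (Equiv.Perm (R K V))) ⊆
        (({1, cj K V ua, cj K V uc, cj K V (ua * uc)} : Finset (Equiv.Perm (R K V))) : Set _) := by
      intro g hg
      have h3 := hcon g hg
      simp only [Finset.coe_insert, Finset.coe_singleton, Set.mem_insert_iff, Set.mem_singleton_iff]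
      tauto
    have h3 := Set.ncard_le_ncard h1 (Finset.finite_toSet _)
    rw [Set.ncard_coe_finset] at h3
    have h4 : Nat.card A = (A : Set (Equiv.Perm (R K V))).ncard := Nat.card_coe_set_eq _
    have h5 := Finset.card_le_four (a := (1 : Equiv.Perm (R K V))) (b := cj K V ua) (c := cj K V uc)
      (d := cj K V (ua * uc))
    omega
  obtain ⟨y1, rfl⟩ := hAI hg
  have hca : Sg (-1 : K) (uc : R K V) ua := hac.symm neg_one_sq'
  obtain ⟨t, ht, h3, h4⟩ := adjust hab hs haA hcA (y := y1) hg hac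
  have htA : t ∈ Ah A := by
    rcases ht with rfl | rfl | rfl | rfl
    · exact one_mem _
    · exact haA
    · exact hcA
    · exact mul_mem haA hcA
  have hscb : ¬ Sc ((y1 * t : (R K V)ˣ) : R K V) := by
    intro h5
    rw [← H706.FC.cj_eq_one_iff, map_mul, mul_eq_one_iff_eq_inv] at h5
    have h6 : (cj K V t)⁻¹ = cj K V t := by
      rw [inv_eq_iff_mul_eq_one, ← pow_two]
      exact hs _ htA
    rw [h6] at h5
    rcases ht with rfl | rfl | rfl | rfl
    · exact hg1 (h5.trans (map_one _))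
    · exact hga h5
    · exact hgc h5
    · exact hgac h5
  obtain ⟨ub, hbA, ⟨k2, -, hk2⟩, hbsc, hb2, hmb⟩ := norm_lift hU hD hS hn hι (mul_mem (show y1 ∈ Ah A from hg) htA) hscb
  have hab' : Sg (1 : K) (ua : R K V) ub := by
    rw [hk2]
    exact h3.smul_right k2
  have hcb : Sg (1 : K) (uc : R K V) ub := by
    rw [hk2]
    exact h4.smul_right k2
  have hbc : Sg (1 : K) (ub : R K V) uc := hcb.symm (one_mul 1)
  have hba : Sg (1 : K) (ub : R K V) ua := hab'.symm (one_mul 1)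
  -- `ud`
  obtain ⟨-, w', hw', hbw⟩ := H706.FC.exists_anti hsp hab hs hbA hbsc
  have hbw' : Sg (-1 : K) (ub : R K V) w' := by
    unfold Sg
    rw [hbw, neg_smul, one_smul]
  obtain ⟨t', ht', h5, h6⟩ := adjust hab hs haA hcA hw' hac
  have htA' : t' ∈ Ah A := by
    rcases ht' with rfl | rfl | rfl | rfl
    · exact one_mem _
    · exact haA
    · exact hcA
    · exact mul_mem haA hcA
  have hbt : Sg (1 : K) (ub : R K V) t' := by
    rcases ht' with rfl | rfl | rfl | rfl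
    · unfold Sg
      rw [Units.val_one, mul_one, one_mul, one_smul]
    · exact hba
    · exact hbc
    · have h7 := hba.mul_right hbc
      rwa [one_mul] at h7
  have hbw2 : Sg (-1 : K) (ub : R K V) (w' * t' : (R K V)ˣ) := by
    have h7 := hbw'.mul_right hbt
    rwa [mul_one] at h7
  obtain ⟨ud, hdA, ⟨k3, -, hk3⟩, hdsc, hd2, hmd⟩ := norm_lift hU hD hS hn hι (mul_mem hw' htA') (not_sc h2 hbw2)
  refine ⟨ua, ub, uc, ud, ⟨haA, hbA, hcA, hdA, ha2, hb2, hc2, hd2, hab', hac, ?_, hbc, ?_, ?_⟩, hma, hmb, hmc, hmd⟩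
  · rw [hk3]
    exact h5.smul_right k3
  · rw [hk3]
    exact hbw2.smul_right k3
  · rw [hk3]
    exact h6.smul_right k3

/-- the third involution of a pair -/
theorem third [Nontrivial V] {ι : K} (hι : ι * ι = -1) (hν : ι * b.τ ι = -1) {x y : (R K V)ˣ} (hx : x ∈ Ah A)
    (hy : y ∈ Ah A) (hx2 : (x : R K V) * x = 1) (hy2 : (y : R K V) * y = 1) (hxy : Sg (-1 : K) (x : R K V) y)
    {μ μ' : K} (hμ : Sml b (x : R K V) μ) (hμ' : Sml b (y : R K V) μ') :
    ∃ m ∈ Ah A, (m : R K V) = ι • ((x : R K V) * y) ∧ (m : R K V) * m = 1 ∧ Sg (-1 : K) (m : R K V) y ∧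
      Sg (-1 : K) (x : R K V) m ∧ Sml b (m : R K V) (-(μ * μ')) := by
  have hι0 : ι ≠ 0 := by
    rintro rfl
    rw [mul_zero] at hι
    exact one_ne_zero (α := K) (by linear_combination hι)
  have hm : (smulU (Units.mk0 ι hι0) (x * y) : R K V) = ι • ((x : R K V) * y) := rfl
  have hyx : Sg (-1 : K) (y : R K V) x := hxy.symm neg_one_sq'
  refine ⟨smulU (Units.mk0 ι hι0) (x * y), smulU_mem (mul_mem hx hy) _, hm, ?_, ?_, ?_, ?_⟩
  · rw [hm, smul_mul_smul_comm, hι]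
    have h1 : (x : R K V) * y * (x * y) = -1 := by
      have h2 : (y : R K V) * x = -((x : R K V) * y) := by
        have h3 := hyx
        unfold Sg at h3
        rwa [neg_smul, one_smul] at h3
      calc (x : R K V) * y * (x * y) = x * (y * x) * y := by simp only [mul_assoc]
        _ = -((x : R K V) * x * (y * y)) := by rw [h2]; simp only [mul_neg, neg_mul, mul_assoc]
        _ = -1 := by rw [hx2, hy2, one_mul]
    rw [h1, neg_smul, one_smul, neg_neg]
  · rw [hm]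
    have h1 := hxy.mul_left (Sg.refl (y : R K V))
    rw [mul_one] at h1
    exact h1.smul_left ι
  · rw [hm]
    have h1 := (Sg.refl (x : R K V)).mul_right hxy
    rw [one_mul] at h1
    exact h1.smul_right ι
  · rw [hm]
    have h1 := sml_smul (sml_mul hμ hμ') ι
    rw [hν, neg_one_mul] at h1
    exact h1

/-- normalization of a pair -/
theorem pairnorm [Nontrivial V] {ι : K} (hι : ι * ι = -1) (hν : ι * b.τ ι = -1) {x y : (R K V)ˣ} (hx : x ∈ Ah A)
    (hy : y ∈ Ah A) (hx2 : (x : R K V) * x = 1) (hy2 : (y : R K V) * y = 1) (hxy : Sg (-1 : K) (x : R K V) y)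
    (hμ : Sml b (x : R K V) 1 ∨ Sml b (x : R K V) (-1)) (hμ' : Sml b (y : R K V) 1 ∨ Sml b (y : R K V) (-1)) :
    ∃ x' ∈ Ah A, ∃ y' ∈ Ah A, (x' : R K V) * x' = 1 ∧ (y' : R K V) * y' = 1 ∧ Sg (-1 : K) (x' : R K V) y' ∧
      (∀ w : R K V, Sg (1 : K) w x → Sg (1 : K) w y → Sg (1 : K) w x' ∧ Sg (1 : K) w y') ∧
      ((Sml b (x' : R K V) 1 ∧ Sml b (y' : R K V) 1) ∨ (Sml b (x' : R K V) (-1) ∧ Sml b (y' : R K V) (-1))) := by
  rcases hμ with h1 | h1 <;> rcases hμ' with h2 | h2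
  · exact ⟨x, hx, y, hy, hx2, hy2, hxy, fun w h h' => ⟨h, h'⟩, Or.inl ⟨h1, h2⟩⟩
  · obtain ⟨m, hmA, hm, hm2, h3, h4, h5⟩ := third hι hν hx hy hx2 hy2 hxy h1 h2
    refine ⟨x, hx, m, hmA, hx2, hm2, h4, fun w h h' => ⟨h, ?_⟩, Or.inl ⟨h1, ?_⟩⟩
    · rw [hm]
      have h6 := h.mul_right h'
      rw [one_mul] at h6
      exact h6.smul_right ι
    · have e : -((1 : K) * -1) = 1 := by norm_num
      rwa [e] at h5
  · obtain ⟨m, hmA, hm, hm2, h3, h4, h5⟩ := third hι hν hx hy hx2 hy2 hxy h1 h2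
    refine ⟨m, hmA, y, hy, hm2, hy2, h3, fun w h h' => ⟨?_, h'⟩, Or.inl ⟨?_, h2⟩⟩
    · rw [hm]
      have h6 := h.mul_right h'
      rw [one_mul] at h6
      exact h6.smul_right ι
    · have e : -((-1 : K) * 1) = 1 := by norm_num
      rwa [e] at h5
  · exact ⟨x, hx, y, hy, hx2, hy2, hxy, fun w h h' => ⟨h, h'⟩, Or.inr ⟨h1, h2⟩⟩

/-- the quadruple -/
theorem exists_quad (hU : b.IsU) {S : Subgroup (Equiv.Perm (R K V))} {r a : ℕ} (hD : C6Data S A r a) (hS : S ≤ RB b)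
    (hn : Module.finrank K V = 4) {ι : K} (hι : ι * ι = -1) (h2 : (2 : K) ≠ 0) :
    ∃ ua ub uc ud : (R K V)ˣ, PQ A ua ub uc ud ∧ Sml b (ua : R K V) 1 ∧ Sml b (uc : R K V) 1 ∧
      ((Sml b (ub : R K V) 1 ∧ Sml b (ud : R K V) 1) ∨
        (b.τ ι = ι ∧ Sml b (ub : R K V) (-1) ∧ Sml b (ud : R K V) (-1))) := by
  have hnt := nontrivial_of hD.1 hD.2.2.1
  obtain ⟨ua, ub, uc, ud, hQ, hma, hmb, hmc, hmd⟩ := exists_PQ hU hD hS hn hι h2
  have hι0 : ι ≠ 0 := by
    rintro rfl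
    rw [mul_zero] at hι
    exact one_ne_zero (α := K) (by linear_combination hι)
  have hν2 : (ι * b.τ ι) * (ι * b.τ ι) = 1 := by
    have h3 : b.τ ι * b.τ ι = -1 := by rw [← map_mul, hι, map_neg, map_one]
    linear_combination (b.τ ι * b.τ ι) * hι - h3
  rcases mul_self_eq_one_iff.1 hν2 with hν | hν
  · rw [hν, or_self] at hma hmb hmc hmd
    exact ⟨ua, ub, uc, ud, hQ, hma, hmc, Or.inl ⟨hmb, hmd⟩⟩
  have hτι : b.τ ι = ι := by
    apply mul_left_cancel₀ hι0
    rw [hν, hι]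
  rw [hν] at hma hmb hmc hmd
  obtain ⟨x, hx, y, hy, hx2, hy2, hxy, hxyc, hxym⟩ := pairnorm hι hν hQ.aA hQ.cA hQ.a2 hQ.c2 hQ.ac hma hmc
  obtain ⟨x', hx', y', hy', hx2', hy2', hxy', hxyc', hxym'⟩ := pairnorm hι hν hQ.bA hQ.dA hQ.b2 hQ.d2 hQ.bd hmb hmd
  have hy'' : ∀ w : R K V, Sg (1 : K) w ub → Sg (1 : K) w ud → Sg (1 : K) w x' ∧ Sg (1 : K) w y' := hxyc'
  have e1 : (1 : K) * 1 = 1 := one_mul 1
  have k1 := hxyc' (ua : R K V) hQ.ab hQ.ad
  have k2 := hxyc' (uc : R K V) (hQ.bc.symm e1) hQ.cd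
  have k3 := hxyc (x' : R K V) (k1.1.symm e1) (k2.1.symm e1)
  have k4 := hxyc (y' : R K V) (k1.2.symm e1) (k2.2.symm e1)
  have hQ' : PQ A x x' y y' :=
    ⟨hx, hx', hy, hy', hx2, hx2', hy2, hy2', k3.1.symm e1, hxy, k4.1.symm e1, k3.2, hxy', k4.2.symm e1⟩
  have hQ'' : PQ A x' x y' y :=
    ⟨hx', hx, hy', hy, hx2', hx2, hy2', hy2, k3.1, hxy', k3.2, k4.1.symm e1, hxy, k4.2⟩
  rcases hxym with ⟨h3, h4⟩ | ⟨h3, h4⟩ <;> rcases hxym' with ⟨h5, h6⟩ | ⟨h5, h6⟩
  · exact ⟨x, x', y, y', hQ', h3, h4, Or.inl ⟨h5, h6⟩⟩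
  · exact ⟨x, x', y, y', hQ', h3, h4, Or.inr ⟨hτι, h5, h6⟩⟩
  · exact ⟨x', x, y', y, hQ'', h5, h6, Or.inr ⟨hτι, h3, h4⟩⟩
  · -- two elliptic pairs
    obtain ⟨m, hmA, hm, hm2, m1, m2, m3⟩ := third hι hν hx hy hx2 hy2 hxy h3 h4
    obtain ⟨m', hmA', hm', hm2', m1', m2', m3'⟩ := third hι hν hx' hy' hx2' hy2' hxy' h5 h6
    have e2 : -((-1 : K) * -1) = -1 := by norm_num
    rw [e2] at m3 m3'
    have e3 : (-1 : K) * -1 = 1 := by norm_num
    have c1 : Sg (1 : K) (x' : R K V) m := by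
      rw [hm]
      have h7 := k3.1.mul_right k3.2
      rw [e1] at h7
      exact h7.smul_right ι
    have c2 : Sg (1 : K) (y' : R K V) m := by
      rw [hm]
      have h7 := k4.1.mul_right k4.2
      rw [e1] at h7
      exact h7.smul_right ι
    have c3 : Sg (1 : K) (x : R K V) m' := by
      rw [hm']
      have h7 := (k3.1.symm e1).mul_right (k4.1.symm e1)
      rw [e1] at h7
      exact h7.smul_right ι
    have c4 : Sg (1 : K) (y : R K V) m' := by
      rw [hm']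
      have h7 := (k3.2.symm e1).mul_right (k4.2.symm e1)
      rw [e1] at h7
      exact h7.smul_right ι
    have c5 : Sg (1 : K) (m : R K V) m' := by
      rw [hm']
      have h7 := (c1.symm e1).mul_right (c2.symm e1)
      rw [e1] at h7
      exact h7.smul_right ι
    -- `a = x x'`, `b = m y'`, `c = y x'`, `d = m m'`
    have sqr : ∀ {p q : (R K V)ˣ}, (p : R K V) * p = 1 → (q : R K V) * q = 1 → Sg (1 : K) (p : R K V) q →
        ((p * q : (R K V)ˣ) : R K V) * ((p * q : (R K V)ˣ) : R K V) = 1 := by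
      intro p q hp hq hpq
      unfold Sg at hpq
      rw [one_smul] at hpq
      rw [Units.val_mul]
      calc (p : R K V) * q * (p * q) = p * (q * p) * q := by simp only [mul_assoc]
        _ = (p : R K V) * p * (q * q) := by rw [← hpq]; simp only [mul_assoc]
        _ = 1 := by rw [hp, hq, one_mul]
    have e4 : (1 : K) * -1 = -1 := one_mul _
    have e5 : (-1 : K) * 1 = -1 := mul_one _
    refine ⟨x * x', m * y', y * x', m * m', ⟨mul_mem hx hx', mul_mem hmA hy', mul_mem hy hx', mul_mem hmA hmA',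
      sqr hx2 hx2' (k3.1.symm e1), sqr hm2 hy2' (c2.symm e1), sqr hy2 hx2' (k3.2.symm e1), sqr hm2 hm2' c5,
      ?_, ?_, ?_, ?_, ?_, ?_⟩, ?_, ?_, Or.inl ⟨?_, ?_⟩⟩
    · -- ab
      have h7 := (m2.mul_right (k4.1.symm e1)).mul_left (c1.mul_right hxy')
      rw [show (-1 : K) * 1 * (1 * -1) = 1 by norm_num] at h7
      exact h7
    · -- ac
      have h7 := (hxy.mul_right (k3.1.symm e1)).mul_left (k3.2.mul_right (Sg.refl (x' : R K V)))
      rw [show (-1 : K) * 1 * (1 * 1) = -1 by norm_num] at h7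
      exact h7
    · -- ad
      have h7 := (m2.mul_right c3).mul_left (c1.mul_right m2')
      rw [show (-1 : K) * 1 * (1 * -1) = 1 by norm_num] at h7
      exact h7
    · -- bc
      have h7 := (m1.mul_right (c1.symm e1)).mul_left (k4.2.mul_right (hxy'.symm e3))
      rw [show (-1 : K) * 1 * (1 * -1) = 1 by norm_num] at h7
      exact h7
    · -- bd
      have h7 := ((Sg.refl (m : R K V)).mul_right c5).mul_left (c2.mul_right (m1'.symm e3))
      rw [show (1 : K) * 1 * (1 * -1) = -1 by norm_num] at h7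
      exact h7
    · -- cd
      have h7 := ((m1.symm e3).mul_right c4).mul_left (c1.mul_right m2')
      rw [show (-1 : K) * 1 * (1 * -1) = 1 by norm_num] at h7
      exact h7
    · have h7 := sml_mul h3 h5
      rw [e3] at h7
      exact h7
    · have h7 := sml_mul h4 h5
      rw [e3] at h7
      exact h7
    · have h7 := sml_mul m3 h6
      rw [e3] at h7
      exact h7
    · have h7 := sml_mul m3 m3'
      rw [e3] at h7
      exact h7

end four

end Cfsg.Agent.H801.FC
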