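import Cfsg.Agent.H801.FC.U4

/-!
# S5764, B-C6U34: the case `n = 4`, frames (helper801)
-/

set_option autoImplicit false
set_option linter.unusedSectionVars false

namespace Cfsg.Agent.H801.FC

open Cfsg.Agent.H198.FC Cfsg.Agent.H961.FC
open Cfsg.Agent.H706.FC (Ah mem_Ah Sc)

universe u v

/-- addition of indices (the Klein four-group) -/
def tr (i k : Fin 4) : Fin 4 :=
  (![![0, 1, 2, 3], ![1, 0, 3, 2], ![2, 3, 0, 1], ![3, 2, 1, 0]] : Fin 4 → Fin 4 → Fin 4) i k

theorem tr_a : ∀ i : Fin 4, tr 2 (tr i 1) = tr i 3 := by decide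

theorem tr_b : ∀ i : Fin 4, tr 2 (tr i 2) = i := by decide

theorem tr_c : ∀ i : Fin 4, tr 1 (tr i 1) = i := by decide

theorem tr_inj : ∀ i : Fin 4, Function.Injective (tr i) := by decide

theorem tr_ne : ∀ i n : Fin 4, i ≠ 0 → tr i n ≠ n := by decide

section four

variable {K : Type u} [Field K] [Finite K] {V : Type v} [AddCommGroup V] [Module K V] [Module.Finite K V]
  {b : Cl K V} {A : Subgroup (Equiv.Perm (R K V))}

/-- eigenvalues of `a` -/
def sa : Fin 4 → K := ![1, 1, -1, -1]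

/-- eigenvalues of `b` -/
def sb : Fin 4 → K := ![1, -1, 1, -1]

/-- characters -/
def ch (d g : K) : Fin 4 → K := ![1, d, g, g * d]

/-- data for `n = 4` -/
structure Fr4 (A : Subgroup (Equiv.Perm (R K V))) (ua ub uc ud : (R K V)ˣ) (e : Module.Basis (Fin 4) K V) : Prop where
  aA : ua ∈ Ah A
  bA : ub ∈ Ah A
  cA : uc ∈ Ah A
  dA : ud ∈ Ah A
  ae : ∀ i, (ua : R K V) (e i) = sa (K := K) i • e i
  be : ∀ i, (ub : R K V) (e i) = sb (K := K) i • e i
  ce : ∀ i, (uc : R K V) (e i) = e (tr 2 i)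
  de : ∀ i, (ud : R K V) (e i) = e (tr 1 i)

theorem app_sq {p : R K V} (h : p * p = 1) (v : V) : p (p v) = v := by
  rw [← Module.End.mul_apply, h, Module.End.one_apply]

theorem exists_fr4 [Nontrivial V] (hn : Module.finrank K V = 4) (h2 : (2 : K) ≠ 0) {ua ub uc ud : (R K V)ˣ}
    (hQ : PQ A ua ub uc ud) : ∃ e, Fr4 A ua ub uc ud e := by
  have hab := hQ.ab.app
  have hac := hQ.ac.app
  have had := hQ.ad.app
  have hbc := hQ.bc.app
  have hbd := hQ.bd.app
  have hcd := hQ.cd.app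
  simp only [one_smul, neg_smul] at hab hac had hbc hbd hcd
  have ha2 := app_sq hQ.a2
  have hb2 := app_sq hQ.b2
  have hc2 := app_sq hQ.c2
  have hd2 := app_sq hQ.d2
  obtain ⟨v, hv⟩ : ∃ v, v + (ua : R K V) v + (ub : R K V) v + (ua : R K V) ((ub : R K V) v) ≠ 0 := by
    by_contra hcon
    push Not at hcon
    obtain ⟨v, hv⟩ := exists_ne (0 : V)
    -- `(1 + a)(1 + b) = 0`
    have h1 : ∀ v, v + (ub : R K V) v = 0 := by
      intro v
      have h3 := hcon v
      have h4 := congrArg (uc : R K V) (hcon ((uc : R K V) v))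
      rw [map_add, map_add, map_add, map_zero, hac, hbc, hac, map_neg, map_neg, hc2, hc2, hc2, hc2] at h4
      have h5 : (2 : K) • (v + (ub : R K V) v) = 0 := by
        linear_combination (norm := module) h3 + h4
      exact (smul_eq_zero.1 h5).resolve_left h2
    have h3 := h1 v
    have h4 := congrArg (ud : R K V) (h1 ((ud : R K V) v))
    rw [map_add, map_zero, hbd, map_neg, hd2, hd2] at h4
    have h5 : (2 : K) • v = 0 := by
      linear_combination (norm := module) h3 + h4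
    exact hv ((smul_eq_zero.1 h5).resolve_left h2)
  set e0 := v + (ua : R K V) v + (ub : R K V) v + (ua : R K V) ((ub : R K V) v) with he0
  have a0 : (ua : R K V) e0 = e0 := by
    rw [he0, map_add, map_add, map_add, ha2, ha2]
    abel
  have b0 : (ub : R K V) e0 = e0 := by
    rw [he0, map_add, map_add, map_add, ← hab, ← hab, hb2]
    abel
  have a1 : (ua : R K V) ((ud : R K V) e0) = (ud : R K V) e0 := by rw [had, a0]
  have b1 : (ub : R K V) ((ud : R K V) e0) = -(ud : R K V) e0 := by rw [hbd, b0]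
  have a2 : (ua : R K V) ((uc : R K V) e0) = -(uc : R K V) e0 := by rw [hac, a0]
  have b2 : (ub : R K V) ((uc : R K V) e0) = (uc : R K V) e0 := by rw [hbc, b0]
  have a3 : (ua : R K V) ((uc : R K V) ((ud : R K V) e0)) = -(uc : R K V) ((ud : R K V) e0) := by rw [hac, a1]
  have b3 : (ub : R K V) ((uc : R K V) ((ud : R K V) e0)) = -(uc : R K V) ((ud : R K V) e0) := by
    rw [hbc, b1, map_neg]
  have hc0 : ∀ v, v ≠ 0 → (uc : R K V) v ≠ 0 := fun v hv h => hv (unit_injective uc (by rw [h, map_zero]))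
  have hd0 : ∀ v, v ≠ 0 → (ud : R K V) v ≠ 0 := fun v hv h => hv (unit_injective ud (by rw [h, map_zero]))
  have hli : LinearIndependent K (![e0, (ud : R K V) e0, (uc : R K V) e0, (uc : R K V) ((ud : R K V) e0)] :
      Fin 4 → V) := by
    rw [Fintype.linearIndependent_iff]
    intro t ht
    rw [Fin.sum_univ_four] at ht
    change t 0 • e0 + t 1 • (ud : R K V) e0 + t 2 • (uc : R K V) e0 + t 3 • (uc : R K V) ((ud : R K V) e0) = 0 at ht
    have hta := congrArg (ua : R K V) ht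
    have htb := congrArg (ub : R K V) ht
    rw [map_add, map_add, map_add, map_smul, map_smul, map_smul, map_smul, map_zero, a0, a1, a2, a3] at hta
    rw [map_add, map_add, map_add, map_smul, map_smul, map_smul, map_smul, map_zero, b0, b1, b2, b3] at htb
    have htab := congrArg (ub : R K V) hta
    rw [map_add, map_add, map_add, map_smul, map_smul, map_smul, map_smul, map_zero, map_neg, map_neg, b0, b1, b2,
      b3, neg_neg] at htab
    have h4 : (4 : K) ≠ 0 := by
      intro h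
      have h5 : (2 : K) * 2 = 0 := by rw [← h]; norm_num
      exact h2 (mul_self_eq_zero.1 h5)
    have key : ∀ (s : K) (w : V), w ≠ 0 → (4 : K) • (s • w) = 0 → s = 0 := by
      intro s w hw h
      exact (smul_eq_zero.1 ((smul_eq_zero.1 h).resolve_left h4)).resolve_right hw
    intro i
    fin_cases i
    · refine key (t 0) e0 hv ?_
      linear_combination (norm := module) ht + hta + htb + htab
    · refine key (t 1) _ (hd0 _ hv) ?_
      linear_combination (norm := module) ht + hta - htb - htab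
    · refine key (t 2) _ (hc0 _ hv) ?_
      linear_combination (norm := module) ht - hta + htb - htab
    · refine key (t 3) _ (hc0 _ (hd0 _ hv)) ?_
      linear_combination (norm := module) ht - hta - htb + htab
  set e := basisOfLinearIndependentOfCardEqFinrank hli (by rw [hn, Fintype.card_fin]) with he
  have hec : ∀ i, e i = (![e0, (ud : R K V) e0, (uc : R K V) e0, (uc : R K V) ((ud : R K V) e0)] : Fin 4 → V) i := by
    intro i
    rw [he, coe_basisOfLinearIndependentOfCardEqFinrank]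
  refine ⟨e, hQ.aA, hQ.bA, hQ.cA, hQ.dA, fun i => ?_, fun i => ?_, fun i => ?_, fun i => ?_⟩
  · rw [hec]
    fin_cases i
    · show (ua : R K V) e0 = (1 : K) • e0
      rw [one_smul, a0]
    · show (ua : R K V) ((ud : R K V) e0) = (1 : K) • (ud : R K V) e0
      rw [one_smul, a1]
    · show (ua : R K V) ((uc : R K V) e0) = (-1 : K) • (uc : R K V) e0
      rw [neg_smul, one_smul, a2]
    · show (ua : R K V) ((uc : R K V) ((ud : R K V) e0)) = (-1 : K) • (uc : R K V) ((ud : R K V) e0)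
      rw [neg_smul, one_smul, a3]
  · rw [hec]
    fin_cases i
    · show (ub : R K V) e0 = (1 : K) • e0
      rw [one_smul, b0]
    · show (ub : R K V) ((ud : R K V) e0) = (-1 : K) • (ud : R K V) e0
      rw [neg_smul, one_smul, b1]
    · show (ub : R K V) ((uc : R K V) e0) = (1 : K) • (uc : R K V) e0
      rw [one_smul, b2]
    · show (ub : R K V) ((uc : R K V) ((ud : R K V) e0)) = (-1 : K) • (uc : R K V) ((ud : R K V) e0)
      rw [neg_smul, one_smul, b3]
  · rw [hec, hec]
    fin_cases i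
    · rfl
    · rfl
    · exact hc2 e0
    · exact hc2 _
  · rw [hec, hec]
    fin_cases i
    · rfl
    · exact hd2 e0
    · show (ud : R K V) ((uc : R K V) e0) = (uc : R K V) ((ud : R K V) e0)
      rw [hcd]
    · show (ud : R K V) ((uc : R K V) ((ud : R K V) e0)) = (uc : R K V) e0
      rw [← hcd, hd2]

/-- common eigenvectors of `a` and `b` -/
theorem line4 {ua ub uc ud : (R K V)ˣ} {e : Module.Basis (Fin 4) K V} (h2 : (2 : K) ≠ 0) (F : Fr4 A ua ub uc ud e)
    {v : V} (hv : v ≠ 0) {l m : K} (ha : (ua : R K V) v = l • v) (hb : (ub : R K V) v = m • v) :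
    ∃ i, ∃ d : K, d ≠ 0 ∧ v = d • e i := by
  have h1 : ∃ i, e.repr v i ≠ 0 := by
    by_contra hcon
    push Not at hcon
    apply hv
    rw [← e.sum_repr v]
    exact Finset.sum_eq_zero fun i _ => by rw [hcon i, zero_smul]
  obtain ⟨i, hi⟩ := h1
  have hl : sa i = l := sub_eq_zero.1 ((mul_eq_zero.1 (eig_repr e F.ae ha i)).resolve_right hi)
  have hm : sb i = m := sub_eq_zero.1 ((mul_eq_zero.1 (eig_repr e F.be hb i)).resolve_right hi)
  refine ⟨i, e.repr v i, hi, ?_⟩
  conv_lhs => rw [← e.sum_repr v]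
  refine Finset.sum_eq_single i (fun j _ hj => ?_) (fun h => absurd (Finset.mem_univ i) h)
  have h3 : e.repr v j = 0 := by
    by_contra h0
    have hl' : sa j = l := sub_eq_zero.1 ((mul_eq_zero.1 (eig_repr e F.ae ha j)).resolve_right h0)
    have hm' : sb j = m := sub_eq_zero.1 ((mul_eq_zero.1 (eig_repr e F.be hb j)).resolve_right h0)
    have h4 : sa (K := K) i = sa j := hl.trans hl'.symm
    have h5 : sb (K := K) i = sb j := hm.trans hm'.symm
    have h11 : (1 : K) ≠ -1 := fun h => h2 (by linear_combination h)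
    apply hj
    fin_cases i <;> fin_cases j <;>
      first
      | rfl
      | exact absurd h4 h11
      | exact absurd h5 h11
      | exact absurd h4.symm h11
      | exact absurd h5.symm h11
  rw [h3, zero_smul]

theorem tr_comm (i k : Fin 4) : tr i k = tr k i := by revert i k; decide

theorem tr_zero (i : Fin 4) : tr i 0 = i := by revert i; decide

theorem zero_tr (i : Fin 4) : tr 0 i = i := by revert i; decide

/-- semilinear maps commuting with `a, b, c, d` up to scalars -/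
theorem shape4 {ua ub uc ud : (R K V)ˣ} {e : Module.Basis (Fin 4) K V} (h2 : (2 : K) ≠ 0) (F : Fr4 A ua ub uc ud e)
    {z : Equiv.Perm (R K V)} {g : V → V} {σ : K ≃+* K} (hg : SemI z g σ) {la lb lc ld : K}
    (ha : ∀ v, g ((ua : R K V) v) = la • (ua : R K V) (g v)) (hb : ∀ v, g ((ub : R K V) v) = lb • (ub : R K V) (g v))
    (hc : ∀ v, g ((uc : R K V) v) = lc • (uc : R K V) (g v)) (hd : ∀ v, g ((ud : R K V) v) = ld • (ud : R K V) (g v)) :
    ∃ (c δ γ : K) (i : Fin 4), c ≠ 0 ∧ δ * δ = 1 ∧ γ * γ = 1 ∧ ∀ k, g (e k) = (ch δ γ k * c) • e (tr i k) := by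
  have h0 := hg.ne_zero (e.ne_zero 0)
  have eig : ∀ (y : (R K V)ˣ) (l : K), (∀ v, g ((y : R K V) v) = l • (y : R K V) (g v)) →
      (y : R K V) (e 0) = (1 : K) • e 0 → (y : R K V) (g (e 0)) = l⁻¹ • g (e 0) := by
    intro y l hy hye
    have h1 := hy (e 0)
    rw [hye, one_smul] at h1
    have hl0 : l ≠ 0 := by
      rintro rfl
      rw [zero_smul] at h1
      exact h0 h1
    rw [h1, smul_smul, inv_mul_cancel₀ hl0, one_smul, ← h1]
  obtain ⟨i, d, hd0, hgd⟩ := line4 h2 F h0 (eig ua la ha (F.ae 0)) (eig ub lb hb (F.be 0))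
  have hg1 : g (e 1) = (ld * d) • e (tr i 1) := by
    have h1 := hd (e 0)
    rw [F.de, hgd, map_smul, F.de, smul_smul, tr_comm 1 i] at h1
    exact h1
  have hg2 : g (e 2) = (lc * d) • e (tr i 2) := by
    have h1 := hc (e 0)
    rw [F.ce, hgd, map_smul, F.ce, smul_smul, tr_comm 2 i] at h1
    exact h1
  have hg3 : g (e 3) = (lc * ld * d) • e (tr i 3) := by
    have h1 := hc (e 1)
    rw [F.ce, hg1, map_smul, F.ce, smul_smul, ← mul_assoc] at h1
    have e1 := tr_a i
    rw [e1] at h1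
    exact h1
  have hc2 : lc * lc = 1 := by
    have h1 := hc (e 2)
    rw [F.ce, hg2, map_smul, F.ce, smul_smul] at h1
    have e1 := tr_b i
    have e2 : tr 2 2 = 0 := by decide
    rw [e1, e2, hgd] at h1
    have h3 : d = lc * (lc * d) := smul_left_injective K (e.ne_zero i) h1
    apply mul_right_cancel₀ hd0
    rw [one_mul]
    conv_rhs => rw [h3]
    ring
  have hd2 : ld * ld = 1 := by
    have h1 := hd (e 1)
    rw [F.de, hg1, map_smul, F.de, smul_smul] at h1
    have e1 := tr_c i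
    have e2 : tr 1 1 = 0 := by decide
    rw [e1, e2, hgd] at h1
    have h3 : d = ld * (ld * d) := smul_left_injective K (e.ne_zero i) h1
    apply mul_right_cancel₀ hd0
    rw [one_mul]
    conv_rhs => rw [h3]
    ring
  refine ⟨d, ld, lc, i, hd0, hd2, hc2, fun k => ?_⟩
  fin_cases k
  · show g (e 0) = ((1 : K) * d) • e (tr i 0)
    rw [one_mul, tr_zero, hgd]
  · exact hg1
  · exact hg2
  · exact hg3

theorem shapeA4 {ua ub uc ud : (R K V)ˣ} {e : Module.Basis (Fin 4) K V} (h2 : (2 : K) ≠ 0) (F : Fr4 A ua ub uc ud e)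
    (hab : ∀ f ∈ A, ∀ g ∈ A, f * g = g * f) {y : (R K V)ˣ} (hy : y ∈ Ah A) :
    ∃ (c δ γ : K) (i : Fin 4), c ≠ 0 ∧ δ * δ = 1 ∧ γ * γ = 1 ∧
      ∀ k, (y : R K V) (e k) = (ch δ γ k * c) • e (tr i k) := by
  obtain ⟨la, ha⟩ := (semI_unit y).rel (cj_mem_RP y) (hab _ hy _ F.aA)
  obtain ⟨lb, hb⟩ := (semI_unit y).rel (cj_mem_RP y) (hab _ hy _ F.bA)
  obtain ⟨lc, hc⟩ := (semI_unit y).rel (cj_mem_RP y) (hab _ hy _ F.cA)
  obtain ⟨ld, hd⟩ := (semI_unit y).rel (cj_mem_RP y) (hab _ hy _ F.dA)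
  exact shape4 h2 F (semI_unit y) ha hb hc hd

theorem ch_ne {δ γ : K} (hδ : δ * δ = 1) (hγ : γ * γ = 1) (k : Fin 4) : ch δ γ k ≠ 0 := by
  have h1 : δ ≠ 0 := by
    rintro rfl
    rw [mul_zero] at hδ
    exact zero_ne_one hδ
  have h2 : γ ≠ 0 := by
    rintro rfl
    rw [mul_zero] at hγ
    exact zero_ne_one hγ
  fin_cases k
  · exact one_ne_zero
  · exact h1
  · exact h2
  · exact mul_ne_zero h2 h1

/-- coordinates of the image of a vector under a monomial map -/
theorem repr_mono {e : Module.Basis (Fin 4) K V} {z : Equiv.Perm (R K V)} {g : V → V} {σ : K ≃+* K}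
    (hg : SemI z g σ) {m : Fin 4 → K} {π : Fin 4 → Fin 4} (hπ : Function.Injective π)
    (h : ∀ k, g (e k) = m k • e (π k)) (v : V) (k : Fin 4) : e.repr (g v) (π k) = σ (e.repr v k) * m k := by
  have h1 : g v = ∑ k, (σ (e.repr v k) * m k) • e (π k) := by
    conv_lhs => rw [← e.sum_repr v]
    rw [hg.sum]
    refine Finset.sum_congr rfl fun i _ => ?_
    rw [hg.smul, h, smul_smul]
  rw [h1, map_sum, Finsupp.finsetSum_apply]
  rw [Finset.sum_eq_single k]
  · rw [map_smul, Finsupp.smul_apply, e.repr_self, Finsupp.single_eq_same, smul_eq_mul, mul_one]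
  · intro j _ hj
    rw [map_smul, Finsupp.smul_apply, e.repr_self, Finsupp.single_eq_of_ne (fun h => hj (hπ h).symm), smul_zero]
  · intro h
    exact absurd (Finset.mem_univ k) h

/-- a lift with an eigenvector with exactly one zero coordinate is scalar -/
theorem scalar_of_eig {ua ub uc ud : (R K V)ˣ} {e : Module.Basis (Fin 4) K V} (h2 : (2 : K) ≠ 0)
    (F : Fr4 A ua ub uc ud e) (hab : ∀ f ∈ A, ∀ g ∈ A, f * g = g * f) {y : (R K V)ˣ} (hy : y ∈ Ah A) {v : V} {n : Fin 4}
    (hv0 : e.repr v n = 0) (hv : ∀ k, k ≠ n → e.repr v k ≠ 0) {l : K} (hl : (y : R K V) v = l • v) :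
    ∃ c : K, ∀ v, (y : R K V) v = c • v := by
  obtain ⟨c, δ, γ, i, hc, hδ, hγ, hye⟩ := shapeA4 h2 F hab hy
  have hinj := tr_inj i
  have hrep := repr_mono (semI_unit y) hinj (m := fun k => ch δ γ k * c) hye v
  rw [hl] at hrep
  have hrep' : ∀ k, l * e.repr v (tr i k) = e.repr v k * (ch δ γ k * c) := by
    intro k
    have h1 := hrep k
    rw [map_smul, Finsupp.smul_apply, smul_eq_mul] at h1
    exact h1
  have hl0 : l ≠ 0 := by
    rintro rfl
    obtain ⟨k, hk⟩ : ∃ k, k ≠ n := exists_ne n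
    have h3 := hrep' k
    rw [zero_mul] at h3
    exact mul_ne_zero (hv k hk) (mul_ne_zero (ch_ne hδ hγ k) hc) h3.symm
  have hi : i = 0 := by
    by_contra hi0
    have h3 := hrep' n
    rw [hv0, zero_mul] at h3
    have h4 := tr_ne i n hi0
    exact mul_ne_zero hl0 (hv _ h4) h3
  subst hi
  have h3 : ∀ k, k ≠ n → ch δ γ k * c = l := by
    intro k hk
    have h4 := hrep' k
    rw [zero_tr, mul_comm] at h4
    exact (mul_left_cancel₀ (hv k hk) h4).symm
  have h4 : δ = 1 ∧ γ = 1 := by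
    have e0 : ch δ γ 0 = 1 := rfl
    have e1 : ch δ γ 1 = δ := rfl
    have e2 : ch δ γ 2 = γ := rfl
    have e3 : ch δ γ 3 = γ * δ := rfl
    have hcc : ∀ j k, j ≠ n → k ≠ n → ch δ γ j = ch δ γ k := fun j k hj hk =>
      mul_right_cancel₀ hc ((h3 j hj).trans (h3 k hk).symm)
    have hδ0 : δ ≠ 0 := ch_ne hδ hγ 1
    have hγ0 : γ ≠ 0 := ch_ne hδ hγ 2
    fin_cases n
    · have k1 := hcc 1 3 (by decide) (by decide)
      have k2 := hcc 2 3 (by decide) (by decide)
      rw [e1, e3] at k1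
      rw [e2, e3] at k2
      refine ⟨?_, ?_⟩
      · exact (mul_left_cancel₀ hγ0 (by rw [mul_one]; exact k2)).symm
      · exact (mul_right_cancel₀ hδ0 (by rw [one_mul]; exact k1)).symm
    · have k1 := hcc 0 2 (by decide) (by decide)
      have k2 := hcc 0 3 (by decide) (by decide)
      rw [e0, e2] at k1
      rw [e0, e3, ← k1, one_mul] at k2
      exact ⟨k2.symm, k1.symm⟩
    · have k1 := hcc 0 1 (by decide) (by decide)
      have k2 := hcc 0 3 (by decide) (by decide)
      rw [e0, e1] at k1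
      rw [e0, e3, ← k1, mul_one] at k2
      exact ⟨k1.symm, k2.symm⟩
    · have k1 := hcc 0 1 (by decide) (by decide)
      have k2 := hcc 0 2 (by decide) (by decide)
      rw [e0, e1] at k1
      rw [e0, e2] at k2
      exact ⟨k1.symm, k2.symm⟩
  obtain ⟨rfl, rfl⟩ := h4
  refine ⟨c, fun v => ?_⟩
  have h5 : (y : R K V) = c • (1 : R K V) := by
    refine e.ext fun k => ?_
    rw [hye, zero_tr, LinearMap.smul_apply, Module.End.one_apply]
    have h6 : ch (1 : K) 1 k = 1 := by
      fin_cases k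
      · rfl
      · rfl
      · rfl
      · exact mul_one 1
    rw [h6, one_mul]
  rw [h5, LinearMap.smul_apply, Module.End.one_apply]

/-- the common part -/
theorem common4 {S : Subgroup (Equiv.Perm (R K V))} (hSR : S ≤ RP K V) (hV : 1 ≤ Module.finrank K V)
    (hab : ∀ f ∈ A, ∀ g ∈ A, f * g = g * f) (hnorm : ∀ g ∈ S, ∀ f ∈ A, g * f * g⁻¹ ∈ A)
    {ua ub uc ud : (R K V)ˣ} {e : Module.Basis (Fin 4) K V} (h2 : (2 : K) ≠ 0) (F : Fr4 A ua ub uc ud e)
    {x : (R K V)ˣ} (hx3 : (x : R K V) (e 3) = e 3)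
    (hxz : ∀ j, j ≠ 3 → ∃ n, e.repr ((x : R K V) (e j)) n = 0 ∧ ∀ k, k ≠ n → e.repr ((x : R K V) (e j)) k ≠ 0)
    {z : Equiv.Perm (R K V)} (hz : z ∈ S) (hzA : ∀ g ∈ A, z * g = g * z) (hZ : cj K V x * z * (cj K V x)⁻¹ ∈ S) :
    ∃ (g : V → V) (σ : K ≃+* K) (c δ γ : K) (π : Fin 4 → Fin 4) (m : Fin 4 → K), SemI z g σ ∧ c ≠ 0 ∧ δ * δ = 1 ∧
      γ * γ = 1 ∧ (∀ k, g (e k) = (ch δ γ k * c) • e k) ∧ Function.Injective π ∧ π 3 = 3 ∧ (∀ k, m k ≠ 0) ∧
      ∀ k j, σ (e.repr ((x : R K V) (e j)) k) * m k = ch δ γ j * c * e.repr ((x : R K V) (e j)) (π k) := by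
  obtain ⟨g, σ, hg⟩ := exists_semI hV (hSR hz)
  obtain ⟨la, hla⟩ := hg.rel (hSR hz) (hzA _ F.aA)
  obtain ⟨lb, hlb⟩ := hg.rel (hSR hz) (hzA _ F.bA)
  obtain ⟨lc, hlc⟩ := hg.rel (hSR hz) (hzA _ F.cA)
  obtain ⟨ld, hld⟩ := hg.rel (hSR hz) (hzA _ F.dA)
  obtain ⟨c, δ, γ, i, hc, hδ, hγ, hge⟩ := shape4 h2 F hg hla hlb hlc hld
  have hh := hg.conj x
  obtain ⟨h, hhd⟩ : ∃ h : V → V, h = fun v => (x : R K V) (g (((x⁻¹ : (R K V)ˣ) : R K V) v)) := ⟨_, rfl⟩
  rw [← hhd] at hh
  have hhx : ∀ v, h ((x : R K V) v) = (x : R K V) (g v) := by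
    intro v
    rw [hhd]
    show (x : R K V) (g (((x⁻¹ : (R K V)ˣ) : R K V) ((x : R K V) v))) = _
    rw [inv_app]
  have hZA := hnorm _ hZ
  have hZA' : ∀ f ∈ A, (cj K V x * z * (cj K V x)⁻¹)⁻¹ * f * (cj K V x * z * (cj K V x)⁻¹) ∈ A := by
    intro f hf
    have h1 := hnorm _ (S.inv_mem hZ) f hf
    rwa [inv_inv] at h1
  have h3 : h (e 3) = (ch δ γ 3 * c) • (x : R K V) (e (tr i 3)) := by
    have h1 := hhx (e 3)
    rw [hx3, hge, map_smul] at h1
    exact h1
  have hc3 : ch δ γ 3 * c ≠ 0 := mul_ne_zero (ch_ne hδ hγ 3) hc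
  have hneg : ∀ v, h (-v) = -h v := by
    intro v
    have h1 := hh.smul (-1) v
    rwa [neg_smul, one_smul, map_neg, map_one, neg_smul, one_smul] at h1
  have hae0 : (ua : R K V) (e 0) = e 0 := by
    rw [F.ae]
    exact one_smul K _
  have hae3 : (ua : R K V) (e 3) = -e 3 := by
    rw [F.ae]
    show (-1 : K) • e 3 = _
    rw [neg_smul, one_smul]
  have hbe3 : (ub : R K V) (e 3) = -e 3 := by
    rw [F.be]
    show (-1 : K) • e 3 = _
    rw [neg_smul, one_smul]
  have hi : i = 0 := by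
    by_contra hi0
    have hj := tr_ne i 3 hi0
    obtain ⟨n, hn0, hn⟩ := hxz _ hj
    obtain ⟨y, hy, hyh⟩ := hh.norm (hSR hZ) hZA F.aA
    have e1 : (y : R K V) (h (e 3)) = (-1 : K) • h (e 3) := by
      rw [hyh, hae3, hneg, neg_smul, one_smul]
    obtain ⟨c', hc'⟩ := scalar_of_eig h2 F hab hy (v := h (e 3)) (n := n) (by
      rw [h3, map_smul, Finsupp.smul_apply, hn0, smul_zero]) (fun k hk => by
      rw [h3, map_smul, Finsupp.smul_apply, smul_eq_mul]
      exact mul_ne_zero hc3 (hn k hk)) e1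
    have h4 : c' = 1 := by
      have h5 := hyh (e 0)
      rw [hc', hae0] at h5
      refine smul_left_injective K (hh.ne_zero (e.ne_zero 0)) ?_
      show c' • h (e 0) = (1 : K) • h (e 0)
      rw [h5, one_smul]
    have h5 : c' = -1 := by
      rw [hc'] at e1
      exact smul_left_injective K (hh.ne_zero (e.ne_zero 3)) e1
    apply h2
    linear_combination h5 - h4
  subst hi
  have hge' : ∀ k, g (e k) = (ch δ γ k * c) • e k := fun k => by rw [hge, zero_tr]
  have hh3 : h (e 3) = (ch δ γ 3 * c) • e 3 := by rw [h3, zero_tr, hx3]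
  -- `h` is monomial
  have diag : ∀ {w : (R K V)ˣ}, w ∈ Ah A → (w : R K V) (e 3) = -e 3 → ∀ k, ∃ l : K,
      (w : R K V) (h (e k)) = l • h (e k) := by
    intro w hw hw3 k
    obtain ⟨y, hy, hyh⟩ := hh.norm' (hSR hZ) hZA' hw
    obtain ⟨c', δ', γ', i', hc', hδ', hγ', hye⟩ := shapeA4 h2 F hab hy
    have hi' : i' = 0 := by
      have h4 : h (-e 3) = h ((y : R K V) (e 3)) := by
        rw [← hyh, hneg, hh3, map_smul, hw3, smul_neg]
      have h5 := hh.inj h4
      rw [hye] at h5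
      by_contra hi0
      have h6 := tr_ne i' 3 hi0
      have h7 := congrArg (fun v => e.repr v (tr i' 3)) h5
      simp only [map_neg, map_smul, Finsupp.neg_apply, Finsupp.smul_apply, e.repr_self,
        Finsupp.single_eq_same, Finsupp.single_eq_of_ne h6, smul_eq_mul, mul_one, neg_zero] at h7
      exact mul_ne_zero (ch_ne hδ' hγ' 3) hc' h7.symm
    subst hi'
    refine ⟨σ (ch δ' γ' k * c'), ?_⟩
    rw [hyh, hye, zero_tr, hh.smul]
  have hmono : ∀ k, ∃ (j : Fin 4) (m : K), m ≠ 0 ∧ h (e k) = m • e j := by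
    intro k
    obtain ⟨l1, h4⟩ := diag F.aA hae3 k
    obtain ⟨l2, h5⟩ := diag F.bA hbe3 k
    obtain ⟨j, d, hd, h6⟩ := line4 h2 F (hh.ne_zero (e.ne_zero k)) h4 h5
    exact ⟨j, d, hd, h6⟩
  choose π m hm hπm using hmono
  have hπinj : Function.Injective π := by
    intro k k' hkk
    by_contra hne
    -- `h (e k)` and `h (e k')` are proportional
    have h4 : h (σ.symm (m k') • e k) = h (σ.symm (m k) • e k') := by
      rw [hh.smul, hh.smul, RingEquiv.apply_symm_apply, RingEquiv.apply_symm_apply, hπm, hπm, hkk, smul_comm]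
    have h5 := hh.inj h4
    have h6 := congrArg (fun v => e.repr v k) h5
    simp only [map_smul, Finsupp.smul_apply, e.repr_self, Finsupp.single_eq_same, smul_eq_mul, mul_one] at h6
    rw [Finsupp.single_eq_of_ne hne, mul_zero] at h6
    exact hm k' ((map_eq_zero σ.symm).1 h6)
  have hπ3 : π 3 = 3 := by
    by_contra hne
    have h4 := hπm 3
    rw [hh3] at h4
    have h5 := congrArg (fun v => e.repr v 3) h4
    simp only [map_smul, Finsupp.smul_apply, e.repr_self, Finsupp.single_eq_same, smul_eq_mul, mul_one] at h5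
    rw [Finsupp.single_eq_of_ne (Ne.symm hne), mul_zero] at h5
    exact hc3 h5
  refine ⟨g, σ, c, δ, γ, π, m, hg, hc, hδ, hγ, hge', hπinj, hπ3, hm, fun k j => ?_⟩
  rw [← repr_mono hh hπinj hπm, hhx, hge', map_smul, map_smul, Finsupp.smul_apply, smul_eq_mul]

end four

end Cfsg.Agent.H801.FC
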