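import Cfsg.Agent.H801.FC.U4b

/-!
# S5764, B-C6U34: the case `n = 4`, conclusion (helper801)
-/

set_option autoImplicit false
set_option linter.unusedSectionVars false

namespace Cfsg.Agent.H801.FC

open Cfsg.Agent.H198.FC Cfsg.Agent.H961.FC
open Cfsg.Agent.H706.FC (Ah mem_Ah Sc)

universe u v

section four

variable {K : Type u} [Field K] [Finite K] {V : Type v} [AddCommGroup V] [Module K V] [Module.Finite K V]
  {b : Cl K V} {A : Subgroup (Equiv.Perm (R K V))}

theorem B_zero_of {y : R K V} {μ : K} (hy : Sml b y μ) {v w : V} {l m : K} (hv : y v = l • v) (hw : y w = m • w)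
    (h : l * b.τ m ≠ μ) : b.B v w = 0 := by
  have h1 := hy v w
  rw [hv, hw, b.smul_left, b.smul_right] at h1
  have h2 : (l * b.τ m - μ) * b.B v w = 0 := by linear_combination h1
  exact (mul_eq_zero.1 h2).resolve_left (sub_ne_zero.2 h)

theorem repr_four {e : Module.Basis (Fin 4) K V} {v : V} {p : Fin 4 → K}
    (h : v = p 0 • e 0 + p 1 • e 1 + p 2 • e 2 + p 3 • e 3) (k : Fin 4) : e.repr v k = p k := by
  rw [h, ← Fin.sum_univ_four (fun k => p k • e k), e.repr_sum_self]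

theorem case_plus (hU : b.IsU) {S : Subgroup (Equiv.Perm (R K V))} {r a : ℕ} (hD : C6Data S A r a) (hS : S ≤ RB b)
    (hsol : Group.IsSolvable S) (hn : Module.finrank K V = 4) (h2 : (2 : K) ≠ 0) {ua ub uc ud : (R K V)ˣ}
    {e : Module.Basis (Fin 4) K V} (F : Fr4 A ua ub uc ud e) (ha : Sml b (ua : R K V) 1) (hb : Sml b (ub : R K V) 1)
    (hc : Sml b (uc : R K V) 1) (hd : Sml b (ud : R K V) 1) : FiveB b S := by
  have h11 : (1 : K) ≠ -1 := fun h => h2 (by linear_combination h)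
  have ta : (1 : K) * b.τ (-1) ≠ 1 := by
    rw [map_neg, map_one, one_mul]
    exact fun h => h11 h.symm
  have tb : (-1 : K) * b.τ 1 ≠ 1 := by
    rw [map_one, mul_one]
    exact fun h => h11 h.symm
  have g01 : b.B (e 0) (e 1) = 0 := B_zero_of hb (F.be 0) (F.be 1) ta
  have g02 : b.B (e 0) (e 2) = 0 := B_zero_of ha (F.ae 0) (F.ae 2) ta
  have g10 : b.B (e 1) (e 0) = 0 := B_zero_of hb (F.be 1) (F.be 0) tb
  have g12 : b.B (e 1) (e 2) = 0 := B_zero_of ha (F.ae 1) (F.ae 2) ta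
  have g20 : b.B (e 2) (e 0) = 0 := B_zero_of ha (F.ae 2) (F.ae 0) tb
  have g21 : b.B (e 2) (e 1) = 0 := B_zero_of ha (F.ae 2) (F.ae 1) tb
  have g30 : b.B (e 3) (e 0) = 0 := B_zero_of ha (F.ae 3) (F.ae 0) tb
  have g31 : b.B (e 3) (e 1) = 0 := B_zero_of ha (F.ae 3) (F.ae 1) tb
  have g32 : b.B (e 3) (e 2) = 0 := B_zero_of hb (F.be 3) (F.be 2) tb
  obtain ⟨β, hβ⟩ : ∃ β, β = b.B (e 0) (e 0) := ⟨_, rfl⟩
  have g11 : b.B (e 1) (e 1) = β := by
    have h1 := hd (e 0) (e 0)
    rw [F.de, one_mul, ← hβ] at h1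
    exact h1
  have g22 : b.B (e 2) (e 2) = β := by
    have h1 := hc (e 0) (e 0)
    rw [F.ce, one_mul, ← hβ] at h1
    exact h1
  have hβ0 : β ≠ 0 := by
    intro h0
    apply e.ne_zero 0
    refine eq_zero_of_basis (b := b) e fun i => ?_
    fin_cases i
    · exact hβ.symm.trans h0
    · exact g10
    · exact g20
    · exact g30
  have hτβ : b.τ β = β := by
    conv_rhs => rw [hβ, hU.2 (e 0) (e 0), ← hβ]
  obtain ⟨κ, hκ0, hτκ, hκ⟩ := exists_kappa b.invol hU.1 h2
  obtain ⟨c0, hc00, hc0⟩ := exists_nm b.invol hU.1 (c := (-2 : K)) (by rw [map_neg, map_ofNat]) (neg_ne_zero.2 h2)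
  have hτc0 : b.τ c0 ≠ 0 := (map_ne_zero b.τ).2 hc00
  obtain ⟨w, hw⟩ : ∃ w, w = e 0 + e 1 + c0 • e 2 := ⟨_, rfl⟩
  have w0 : b.B (e 0) w = β := by
    rw [hw, b.add_right, b.add_right, b.smul_right, g01, g02, ← hβ]
    ring
  have w1 : b.B (e 1) w = β := by
    rw [hw, b.add_right, b.add_right, b.smul_right, g10, g11, g12]
    ring
  have w2 : b.B (e 2) w = b.τ c0 * β := by
    rw [hw, b.add_right, b.add_right, b.smul_right, g20, g21, g22]
    ring
  have w3 : b.B (e 3) w = 0 := by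
    rw [hw, b.add_right, b.add_right, b.smul_right, g30, g31, g32]
    ring
  have hww : b.B w w = 0 := by
    have h4 : ∀ v, b.B w v = b.B (e 0) v + b.B (e 1) v + c0 * b.B (e 2) v := by
      intro v
      rw [hw, b.add_left, b.add_left, b.smul_left]
    rw [h4 w, w0, w1, w2]
    linear_combination β * hc0
  obtain ⟨x, hx⟩ : ∃ x : (R K V)ˣ, x = H826.FC.tv b (κ / β) w hww := ⟨_, rfl⟩
  have hxv : ∀ v, (x : R K V) v = v + (κ / β * b.B v w) • w := by
    intro v
    rw [hx]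
    rfl
  have hdet : LinearMap.det (x : R K V) = 1 := by
    rw [hx]
    exact H826.FC.tv_det b (κ / β) w hww
  have hiso : b.Isom (x : R K V) := by
    rw [hx]
    refine H826.FC.tv_isom b hww fun v v' => ?_
    rw [map_div₀, hτκ, hτβ, hU.2 v' w]
    ring
  have x0 : (x : R K V) (e 0) = (1 + κ) • e 0 + κ • e 1 + (κ * c0) • e 2 + (0 : K) • e 3 := by
    rw [hxv, w0, div_mul_cancel₀ _ hβ0, hw]
    module
  have x1 : (x : R K V) (e 1) = κ • e 0 + (1 + κ) • e 1 + (κ * c0) • e 2 + (0 : K) • e 3 := by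
    rw [hxv, w1, div_mul_cancel₀ _ hβ0, hw]
    module
  have x2 : (x : R K V) (e 2) = (κ * b.τ c0) • e 0 + (κ * b.τ c0) • e 1 + (1 - 2 * κ) • e 2 + (0 : K) • e 3 := by
    have h3 : κ / β * (b.τ c0 * β) = κ * b.τ c0 := by
      field_simp
    rw [hxv, w2, h3, hw]
    have h4 : κ * b.τ c0 * c0 = -2 * κ := by linear_combination κ * hc0
    rw [smul_add, smul_add, smul_smul, h4]
    module
  have x3 : (x : R K V) (e 3) = e 3 := by
    rw [hxv, w3, mul_zero, zero_smul, add_zero]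
  have r0 := repr_four (p := ![1 + κ, κ, κ * c0, 0]) x0
  have r1 := repr_four (p := ![κ, 1 + κ, κ * c0, 0]) x1
  have r2 := repr_four (p := ![κ * b.τ c0, κ * b.τ c0, 1 - 2 * κ, 0]) x2
  have hk1 : 1 + κ ≠ 0 := by
    intro h
    have h3 := congrArg b.τ h
    rw [map_add, map_one, hτκ, map_zero] at h3
    apply h2
    linear_combination h + h3
  have hk2 : 1 - 2 * κ ≠ 0 := by
    intro h
    have h3 := congrArg b.τ h
    rw [map_sub, map_one, map_mul, map_ofNat, hτκ, map_zero] at h3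
    apply h2
    linear_combination h + h3
  have hkc : κ * c0 ≠ 0 := mul_ne_zero hκ0 hc00
  have hkc' : κ * b.τ c0 ≠ 0 := mul_ne_zero hκ0 hτc0
  refine fiveB_of_lift hD hsol (lift_SU hU hD hS) x hdet hiso fun z hz hzA hZ => ?_
  obtain ⟨g, σ, c, δ, γ, π, m, hg, hc', hδ, hγ, hge, hπinj, hπ3, hm, E⟩ :=
    common4 (fun f hf => (hS hf).1) (by omega) hD.2.2.2.2.2.2.2.1 hD.2.2.2.2.2.2.2.2.2.1 h2 F x3 (by
      intro j hj
      fin_cases j
      · refine ⟨3, r0 3, fun k hk => ?_⟩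
        rw [show (x : R K V) (e ((fun i => i) ⟨0, by omega⟩)) = (x : R K V) (e 0) from rfl, r0]
        fin_cases k
        · exact hk1
        · exact hκ0
        · exact hkc
        · exact absurd rfl hk
      · refine ⟨3, r1 3, fun k hk => ?_⟩
        rw [show (x : R K V) (e ((fun i => i) ⟨1, by omega⟩)) = (x : R K V) (e 1) from rfl, r1]
        fin_cases k
        · exact hκ0
        · exact hk1
        · exact hkc
        · exact absurd rfl hk
      · refine ⟨3, r2 3, fun k hk => ?_⟩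
        rw [show (x : R K V) (e ((fun i => i) ⟨2, by omega⟩)) = (x : R K V) (e 2) from rfl, r2]
        fin_cases k
        · exact hkc'
        · exact hkc'
        · exact hk2
        · exact absurd rfl hk
      · exact absurd rfl hj) hz hzA hZ
  have E0 : ∀ k, σ ((![1 + κ, κ, κ * c0, 0] : Fin 4 → K) k) * m k = c * (![1 + κ, κ, κ * c0, 0] : Fin 4 → K) (π k) := by
    intro k
    have h3 := E k 0
    rw [r0, r0] at h3
    rw [h3]
    show (1 : K) * c * _ = _
    rw [one_mul]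
  have E1 : ∀ k, σ ((![κ, 1 + κ, κ * c0, 0] : Fin 4 → K) k) * m k =
      δ * c * (![κ, 1 + κ, κ * c0, 0] : Fin 4 → K) (π k) := by
    intro k
    have h3 := E k 1
    rw [r1, r1] at h3
    rw [h3]
    rfl
  have E2 : ∀ k, σ ((![κ * b.τ c0, κ * b.τ c0, 1 - 2 * κ, 0] : Fin 4 → K) k) * m k =
      γ * c * (![κ * b.τ c0, κ * b.τ c0, 1 - 2 * κ, 0] : Fin 4 → K) (π k) := by
    intro k
    have h3 := E k 2
    rw [r2, r2] at h3
    rw [h3]
    rfl
  have hδ' := mul_self_eq_one_iff.1 hδ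
  -- `π 2 = 2`
  have h12 : (![1 + κ, κ, κ * c0, 0] : Fin 4 → K) (π 2) = δ * (![κ, 1 + κ, κ * c0, 0] : Fin 4 → K) (π 2) := by
    apply mul_left_cancel₀ hc'
    have h3 := E0 2
    have h4 := E1 2
    change σ (κ * c0) * m 2 = _ at h3
    change σ (κ * c0) * m 2 = _ at h4
    rw [← h3, h4]
    ring
  have hcase : 1 + κ ≠ δ * κ ∧ κ ≠ δ * (1 + κ) := by
    have e2 : b.τ 2 = 2 := map_ofNat b.τ 2
    rcases hδ' with rfl | rfl
    · refine ⟨fun h => ?_, fun h => ?_⟩
      · exact one_ne_zero (α := K) (by linear_combination h)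
      · exact one_ne_zero (α := K) (by linear_combination - h)
    · refine ⟨fun h => ?_, fun h => ?_⟩
      · have h3 := congrArg b.τ h
        rw [map_add, map_one, map_mul, map_neg, map_one, hτκ] at h3
        apply h2
        linear_combination h + h3
      · have h3 := congrArg b.τ h
        rw [map_mul, map_add, map_neg, map_one, hτκ] at h3
        apply h2
        linear_combination h + h3
  have hπ2 : π 2 = 2 := by
    have h3 : π 2 ≠ 3 := by
      intro h
      have h4 : (2 : Fin 4) = 3 := hπinj (h.trans hπ3.symm)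
      exact absurd h4 (by decide)
    generalize π 2 = p at h12 h3
    fin_cases p
    · exact absurd h12 hcase.1
    · exact absurd h12 hcase.2
    · rfl
    · exact absurd rfl h3
  rw [hπ2] at h12
  have hδ1 : δ = 1 := by
    change κ * c0 = δ * (κ * c0) at h12
    apply mul_right_cancel₀ hkc
    rw [one_mul]
    exact h12.symm
  subst hδ1
  have a0 := E0 0
  have a1 := E1 0
  have a2 := E2 0
  change σ (1 + κ) * m 0 = _ at a0
  change σ κ * m 0 = _ at a1
  change σ (κ * b.τ c0) * m 0 = _ at a2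
  rw [map_add, map_one] at a0
  have hp3 : π 0 ≠ 3 := by
    intro h
    have h4 : (0 : Fin 4) = 3 := hπinj (h.trans hπ3.symm)
    exact absurd h4 (by decide)
  have hp2 : π 0 ≠ 2 := by
    intro h
    have h4 : (0 : Fin 4) = 2 := hπinj (h.trans hπ2.symm)
    exact absurd h4 (by decide)
  generalize π 0 = p at a0 a1 a2 hp3 hp2
  fin_cases p
  · change _ = c * (1 + κ) at a0
    change _ = 1 * c * κ at a1
    change _ = γ * c * (κ * b.τ c0) at a2
    have hm0 : m 0 = c := by linear_combination a0 - a1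
    have hσκ : σ κ = κ := by
      apply mul_right_cancel₀ hc'
      rw [hm0] at a1
      linear_combination a1
    have hσ := hκ σ hσκ
    rw [hσ, hm0] at a2
    have hγ1 : γ = 1 := by
      apply mul_right_cancel₀ (mul_ne_zero hc' hkc')
      linear_combination - a2
    subst hγ1
    refine hg.eq_one e hc' hσ fun k => ?_
    rw [hge]
    have h6 : ch (1 : K) 1 k = 1 := by
      fin_cases k
      · rfl
      · rfl
      · rfl
      · exact mul_one 1
    rw [h6, one_mul]
  · exfalso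
    change _ = c * κ at a0
    change _ = 1 * c * (1 + κ) at a1
    have hm0 : m 0 = -c := by linear_combination a0 - a1
    have h3 : -σ κ = 1 + κ := by
      apply mul_right_cancel₀ hc'
      rw [hm0] at a1
      linear_combination a1
    have h4 := congrArg b.τ h3
    rw [map_neg, ← H567.FC.aut_comm, hτκ, map_neg, map_add, map_one, hτκ] at h4
    apply h2
    linear_combination - h3 - h4
  · exact absurd rfl hp2
  · exact absurd rfl hp3

theorem case_minus (hU : b.IsU) {S : Subgroup (Equiv.Perm (R K V))} {r a : ℕ} (hD : C6Data S A r a) (hS : S ≤ RB b)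
    (hsol : Group.IsSolvable S) (hn : Module.finrank K V = 4) (h2 : (2 : K) ≠ 0) {ua ub uc ud : (R K V)ˣ}
    {e : Module.Basis (Fin 4) K V} (F : Fr4 A ua ub uc ud e) (ha : Sml b (ua : R K V) 1)
    (hb : Sml b (ub : R K V) (-1)) (hc : Sml b (uc : R K V) 1) (hd : Sml b (ud : R K V) (-1)) {t : K}
    (ht : b.τ t = t) (ht0 : t ≠ 0) (ht1 : t ≠ 1) (ht2 : t ≠ -1) (ht3 : t ≠ 2) : FiveB b S := by
  classical
  have h11 : (1 : K) ≠ -1 := fun h => h2 (by linear_combination h)
  have ta : (1 : K) * b.τ (-1) ≠ 1 := by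
    rw [map_neg, map_one, one_mul]
    exact fun h => h11 h.symm
  have tb : (-1 : K) * b.τ 1 ≠ 1 := by
    rw [map_one, mul_one]
    exact fun h => h11 h.symm
  have tc : (1 : K) * b.τ 1 ≠ -1 := by
    rw [map_one, mul_one]
    exact h11
  have td : (-1 : K) * b.τ (-1) ≠ -1 := by
    rw [map_neg, map_one, mul_neg, mul_one, neg_neg]
    exact h11
  have g00 : b.B (e 0) (e 0) = 0 := B_zero_of hb (F.be 0) (F.be 0) tc
  have g11 : b.B (e 1) (e 1) = 0 := B_zero_of hb (F.be 1) (F.be 1) td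
  have g22 : b.B (e 2) (e 2) = 0 := B_zero_of hb (F.be 2) (F.be 2) tc
  have g33 : b.B (e 3) (e 3) = 0 := B_zero_of hb (F.be 3) (F.be 3) td
  have g02 : b.B (e 0) (e 2) = 0 := B_zero_of ha (F.ae 0) (F.ae 2) ta
  have g03 : b.B (e 0) (e 3) = 0 := B_zero_of ha (F.ae 0) (F.ae 3) ta
  have g12 : b.B (e 1) (e 2) = 0 := B_zero_of ha (F.ae 1) (F.ae 2) ta
  have g13 : b.B (e 1) (e 3) = 0 := B_zero_of ha (F.ae 1) (F.ae 3) ta
  have g20 : b.B (e 2) (e 0) = 0 := B_zero_of ha (F.ae 2) (F.ae 0) tb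
  have g21 : b.B (e 2) (e 1) = 0 := B_zero_of ha (F.ae 2) (F.ae 1) tb
  have g30 : b.B (e 3) (e 0) = 0 := B_zero_of ha (F.ae 3) (F.ae 0) tb
  have g31 : b.B (e 3) (e 1) = 0 := B_zero_of ha (F.ae 3) (F.ae 1) tb
  obtain ⟨d, g01⟩ : ∃ d, b.B (e 0) (e 1) = d := ⟨_, rfl⟩
  have g10 : b.B (e 1) (e 0) = -d := by
    have h1 := hd (e 0) (e 1)
    rw [F.de, F.de, g01, neg_one_mul] at h1
    exact h1
  have g23 : b.B (e 2) (e 3) = d := by
    have h1 := hc (e 0) (e 1)
    rw [F.ce, F.ce, g01, one_mul] at h1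
    exact h1
  have g32 : b.B (e 3) (e 2) = -d := by
    have h1 := hc (e 1) (e 0)
    rw [F.ce, F.ce, g10, one_mul] at h1
    exact h1
  obtain ⟨l, hl0, hl⟩ := exists_lam b.invol hU.1
  have hτl : b.τ l ≠ 0 := (map_ne_zero b.τ).2 hl0
  let M : Matrix (Fin 4) (Fin 4) K := !![1, 1, l, 0; 1, 2, l * t, 0; 0, 0, 1, 0;
    b.τ l * (t - 1), b.τ l * (t - 2), 0, 1]
  have hdet : LinearMap.det (Matrix.toLin e e M) = 1 := by
    rw [LinearMap.det_toLin]
    simp [M, Matrix.det_succ_row_zero, Fin.sum_univ_succ, Fin.succAbove]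
    ring
  obtain ⟨x, hx⟩ := exists_unit_of_det hdet
  have x0 : (x : R K V) (e 0) = (1 : K) • e 0 + (1 : K) • e 1 + (0 : K) • e 2 + (b.τ l * (t - 1)) • e 3 := by
    rw [hx, Matrix.toLin_self, Fin.sum_univ_four]
    rfl
  have x1 : (x : R K V) (e 1) = (1 : K) • e 0 + (2 : K) • e 1 + (0 : K) • e 2 + (b.τ l * (t - 2)) • e 3 := by
    rw [hx, Matrix.toLin_self, Fin.sum_univ_four]
    rfl
  have x2 : (x : R K V) (e 2) = l • e 0 + (l * t) • e 1 + (1 : K) • e 2 + (0 : K) • e 3 := by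
    rw [hx, Matrix.toLin_self, Fin.sum_univ_four]
    rfl
  have x3' : (x : R K V) (e 3) = (0 : K) • e 0 + (0 : K) • e 1 + (0 : K) • e 2 + (1 : K) • e 3 := by
    rw [hx, Matrix.toLin_self, Fin.sum_univ_four]
    rfl
  have x3 : (x : R K V) (e 3) = e 3 := by
    rw [x3']
    module
  have hiso : b.Isom (x : R K V) := by
    refine isom_of_basis hU e fun i j => ?_
    have key : ∀ (p q : Fin 4 → K), b.B (p 0 • e 0 + p 1 • e 1 + p 2 • e 2 + p 3 • e 3)
        (q 0 • e 0 + q 1 • e 1 + q 2 • e 2 + q 3 • e 3) =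
        d * (p 0 * b.τ (q 1) - p 1 * b.τ (q 0) + p 2 * b.τ (q 3) - p 3 * b.τ (q 2)) := by
      intro p q
      simp only [b.add_left, b.add_right, b.smul_left, b.smul_right, g00, g01, g02, g03, g10, g11, g12, g13, g20, g21,
        g22, g23, g30, g31, g32, g33]
      ring
    have e2 : b.τ 2 = 2 := map_ofNat b.τ 2
    obtain ⟨P, hP⟩ : ∃ P : Fin 4 → Fin 4 → K, P = ![![1, 1, 0, b.τ l * (t - 1)], ![1, 2, 0, b.τ l * (t - 2)],
      ![l, l * t, 1, 0], ![0, 0, 0, 1]] := ⟨_, rfl⟩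
    have hX : ∀ j, (x : R K V) (e j) = P j 0 • e 0 + P j 1 • e 1 + P j 2 • e 2 + P j 3 • e 3 := by
      intro j
      rw [hP]
      fin_cases j
      · exact x0
      · exact x1
      · exact x2
      · exact x3'
    rw [hX, hX, key, hP]
    fin_cases i <;> fin_cases j
    · change d * (1 * b.τ 1 - 1 * b.τ 1 + 0 * b.τ (b.τ l * (t - 1)) - (b.τ l * (t - 1)) * b.τ 0) = b.B (e 0) (e 0)
      rw [g00, map_zero]
      ring
    · change d * (1 * b.τ 2 - 1 * b.τ 1 + 0 * b.τ (b.τ l * (t - 2)) - (b.τ l * (t - 1)) * b.τ 0) = b.B (e 0) (e 1)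
      rw [g01, map_zero, map_one, e2]
      ring
    · change d * (1 * b.τ (l * t) - 1 * b.τ l + 0 * b.τ 0 - (b.τ l * (t - 1)) * b.τ 1) = b.B (e 0) (e 2)
      rw [g02, map_zero, map_one, map_mul, ht]
      ring
    · change d * (1 * b.τ 0 - 1 * b.τ 0 + 0 * b.τ 1 - (b.τ l * (t - 1)) * b.τ 0) = b.B (e 0) (e 3)
      rw [g03, map_zero]
      ring
    · change d * (1 * b.τ 1 - 2 * b.τ 1 + 0 * b.τ (b.τ l * (t - 1)) - (b.τ l * (t - 2)) * b.τ 0) = b.B (e 1) (e 0)
      rw [g10, map_zero, map_one]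
      ring
    · change d * (1 * b.τ 2 - 2 * b.τ 1 + 0 * b.τ (b.τ l * (t - 2)) - (b.τ l * (t - 2)) * b.τ 0) = b.B (e 1) (e 1)
      rw [g11, map_zero, map_one, e2]
      ring
    · change d * (1 * b.τ (l * t) - 2 * b.τ l + 0 * b.τ 0 - (b.τ l * (t - 2)) * b.τ 1) = b.B (e 1) (e 2)
      rw [g12, map_zero, map_one, map_mul, ht]
      ring
    · change d * (1 * b.τ 0 - 2 * b.τ 0 + 0 * b.τ 1 - (b.τ l * (t - 2)) * b.τ 0) = b.B (e 1) (e 3)
      rw [g13, map_zero]
      ring
    · change d * (l * b.τ 1 - (l * t) * b.τ 1 + 1 * b.τ (b.τ l * (t - 1)) - 0 * b.τ 0) = b.B (e 2) (e 0)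
      rw [g20, map_one, map_mul, b.invol, map_sub, map_one, ht]
      ring
    · change d * (l * b.τ 2 - (l * t) * b.τ 1 + 1 * b.τ (b.τ l * (t - 2)) - 0 * b.τ 0) = b.B (e 2) (e 1)
      rw [g21, map_one, map_mul, b.invol, map_sub, e2, ht]
      ring
    · change d * (l * b.τ (l * t) - (l * t) * b.τ l + 1 * b.τ 0 - 0 * b.τ 1) = b.B (e 2) (e 2)
      rw [g22, map_zero, map_mul, ht]
      ring
    · change d * (l * b.τ 0 - (l * t) * b.τ 0 + 1 * b.τ 1 - 0 * b.τ 0) = b.B (e 2) (e 3)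
      rw [g23, map_zero, map_one]
      ring
    · change d * (0 * b.τ 1 - 0 * b.τ 1 + 0 * b.τ (b.τ l * (t - 1)) - 1 * b.τ 0) = b.B (e 3) (e 0)
      rw [g30, map_zero]
      ring
    · change d * (0 * b.τ 2 - 0 * b.τ 1 + 0 * b.τ (b.τ l * (t - 2)) - 1 * b.τ 0) = b.B (e 3) (e 1)
      rw [g31, map_zero]
      ring
    · change d * (0 * b.τ (l * t) - 0 * b.τ l + 0 * b.τ 0 - 1 * b.τ 1) = b.B (e 3) (e 2)
      rw [g32, map_one]
      ring
    · change d * (0 * b.τ 0 - 0 * b.τ 0 + 0 * b.τ 1 - 1 * b.τ 0) = b.B (e 3) (e 3)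
      rw [g33, map_zero]
      ring
  have r0 := repr_four (p := ![1, 1, 0, b.τ l * (t - 1)]) x0
  have r1 := repr_four (p := ![1, 2, 0, b.τ l * (t - 2)]) x1
  have r2 := repr_four (p := ![l, l * t, 1, 0]) x2
  have n1 : b.τ l * (t - 1) ≠ 0 := mul_ne_zero hτl (sub_ne_zero.2 ht1)
  have n2 : b.τ l * (t - 2) ≠ 0 := mul_ne_zero hτl (sub_ne_zero.2 ht3)
  have n3 : l * t ≠ 0 := mul_ne_zero hl0 ht0
  refine fiveB_of_lift hD hsol (lift_SU hU hD hS) x (by rw [hx]; exact hdet) hiso fun z hz hzA hZ => ?_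
  obtain ⟨g, σ, c, δ, γ, π, m, hg, hc', hδ, hγ, hge, hπinj, hπ3, hm, E⟩ :=
    common4 (fun f hf => (hS hf).1) (by omega) hD.2.2.2.2.2.2.2.1 hD.2.2.2.2.2.2.2.2.2.1 h2 F x3 (by
      intro j hj
      fin_cases j
      · refine ⟨2, r0 2, fun k hk => ?_⟩
        rw [show (x : R K V) (e ((fun i => i) ⟨0, by omega⟩)) = (x : R K V) (e 0) from rfl, r0]
        fin_cases k
        · exact one_ne_zero
        · exact one_ne_zero
        · exact absurd rfl hk
        · exact n1
      · refine ⟨2, r1 2, fun k hk => ?_⟩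
        rw [show (x : R K V) (e ((fun i => i) ⟨1, by omega⟩)) = (x : R K V) (e 1) from rfl, r1]
        fin_cases k
        · exact one_ne_zero
        · exact h2
        · exact absurd rfl hk
        · exact n2
      · refine ⟨3, r2 3, fun k hk => ?_⟩
        rw [show (x : R K V) (e ((fun i => i) ⟨2, by omega⟩)) = (x : R K V) (e 2) from rfl, r2]
        fin_cases k
        · exact hl0
        · exact n3
        · exact one_ne_zero
        · exact absurd rfl hk
      · exact absurd rfl hj) hz hzA hZ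
  have E0 : ∀ k, σ ((![1, 1, 0, b.τ l * (t - 1)] : Fin 4 → K) k) * m k =
      c * (![1, 1, 0, b.τ l * (t - 1)] : Fin 4 → K) (π k) := by
    intro k
    have h3 := E k 0
    rw [r0, r0] at h3
    rw [h3]
    show (1 : K) * c * _ = _
    rw [one_mul]
  have E1 : ∀ k, σ ((![1, 2, 0, b.τ l * (t - 2)] : Fin 4 → K) k) * m k =
      δ * c * (![1, 2, 0, b.τ l * (t - 2)] : Fin 4 → K) (π k) := by
    intro k
    have h3 := E k 1
    rw [r1, r1] at h3
    rw [h3]
    rfl
  have E2 : ∀ k, σ ((![l, l * t, 1, 0] : Fin 4 → K) k) * m k =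
      γ * c * (![l, l * t, 1, 0] : Fin 4 → K) (π k) := by
    intro k
    have h3 := E k 2
    rw [r2, r2] at h3
    rw [h3]
    rfl
  have hδ' := mul_self_eq_one_iff.1 hδ
  have hγ' := mul_self_eq_one_iff.1 hγ
  have hτγ : b.τ γ = γ := by
    rcases hγ' with rfl | rfl
    · exact map_one b.τ
    · rw [map_neg, map_one]
  have hπ2 : π 2 = 2 := by
    have h4 := E0 2
    change σ 0 * m 2 = _ at h4
    rw [map_zero, zero_mul] at h4
    have h5 : (![1, 1, 0, b.τ l * (t - 1)] : Fin 4 → K) (π 2) = 0 := (mul_eq_zero.1 h4.symm).resolve_left hc'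
    generalize π 2 = p at h5
    fin_cases p
    · exact absurd h5 one_ne_zero
    · exact absurd h5 one_ne_zero
    · rfl
    · exact absurd h5 n1
  have a0 := E0 0
  have a1 := E1 0
  have a2 := E2 0
  change σ 1 * m 0 = _ at a0
  change σ 1 * m 0 = _ at a1
  change σ l * m 0 = _ at a2
  rw [map_one, one_mul] at a0 a1
  have hp3 : π 0 ≠ 3 := by
    intro h
    have h4 : (0 : Fin 4) = 3 := hπinj (h.trans hπ3.symm)
    exact absurd h4 (by decide)
  have hp2 : π 0 ≠ 2 := by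
    intro h
    have h4 : (0 : Fin 4) = 2 := hπinj (h.trans hπ2.symm)
    exact absurd h4 (by decide)
  generalize π 0 = p at a0 a1 a2 hp3 hp2
  fin_cases p
  · change _ = c * 1 at a0
    change _ = δ * c * 1 at a1
    change _ = γ * c * l at a2
    have hδ1 : δ = 1 := by
      apply mul_right_cancel₀ hc'
      linear_combination a0 - a1
    have hσl : σ l = γ * l := by
      apply mul_right_cancel₀ hc'
      rw [a0] at a2
      linear_combination a2
    have hσ := hl σ γ hτγ hσl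
    rw [hσ] at hσl
    have hγ1 : γ = 1 := by
      apply mul_right_cancel₀ hl0
      rw [← hσl, one_mul]
    subst hδ1 hγ1
    refine hg.eq_one e hc' hσ fun k => ?_
    rw [hge]
    have h6 : ch (1 : K) 1 k = 1 := by
      fin_cases k
      · rfl
      · rfl
      · rfl
      · exact mul_one 1
    rw [h6, one_mul]
  · exfalso
    change _ = c * 1 at a0
    change _ = δ * c * 2 at a1
    change _ = γ * c * (l * t) at a2
    have hσl : σ l = γ * t * l := by
      apply mul_right_cancel₀ hc'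
      rw [a0] at a2
      linear_combination a2
    have hσ := hl σ (γ * t) (by rw [map_mul, hτγ, ht]) hσl
    rw [hσ] at hσl
    have h3 : γ * t = 1 := by
      apply mul_right_cancel₀ hl0
      rw [← hσl, one_mul]
    rcases hγ' with rfl | rfl
    · exact ht1 (by linear_combination h3)
    · exact ht2 (by linear_combination - h3)
  · exact absurd rfl hp2
  · exact absurd rfl hp3

/-- **[B-C6U34]**, `n = 4` -/
theorem bc6_u4 (K : Type u) [Field K] [Finite K] (V : Type v) [AddCommGroup V] [Module K V] [Module.Finite K V]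
    (b : Cl K V) (hU : b.IsU) (hn : Module.finrank K V = 4) (S : Subgroup (Equiv.Perm (R K V)))
    (hS : S ≤ RB b) (hsol : Group.IsSolvable S) (A : Subgroup (Equiv.Perm (R K V))) (r a : ℕ)
    (hD : C6Data S A r a) : FiveB b S := by
  have hnt := nontrivial_of hD.1 hD.2.2.1
  obtain ⟨hr2, hcard, hs⟩ := r_eq_two hD hn
  have hab := hD.2.2.2.2.2.2.2.1
  have hsp := hD.2.2.2.2.2.2.2.2.1
  have hAI := hD.2.2.2.2.1
  have h2 : (2 : K) ≠ 0 := by
    obtain ⟨f, hf, hf1⟩ : ∃ f ∈ A, f ≠ 1 := by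
      by_contra hcon
      push Not at hcon
      have h1 : A = ⊥ := by
        rw [eq_bot_iff]
        intro f hf
        rw [Subgroup.mem_bot]
        exact hcon f hf
      rw [h1, Subgroup.card_bot] at hcard
      omega
    obtain ⟨y0, rfl⟩ := hAI hf
    exact (H706.FC.exists_anti hsp hab hs hf (fun h => hf1 ((H706.FC.cj_eq_one_iff _).2 h))).1
  have h11 : (1 : K) ≠ -1 := fun h => h2 (by linear_combination h)
  obtain ⟨i0, hi0⟩ := exists_sq b.invol hU.1 h2 (c := (-1 : K)) (by rw [map_neg, map_one])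
  obtain ⟨ι, hι, hι2⟩ : ∃ ι : K, ι * ι = -1 ∧ ι ≠ 2 := by
    by_cases h : i0 = 2
    · refine ⟨-i0, by rw [neg_mul_neg, hi0], fun h3 => ?_⟩
      rw [h] at h3
      have h4 : (2 : K) * 2 = 0 := by linear_combination - h3
      exact h2 (mul_self_eq_zero.1 h4)
    · exact ⟨i0, hi0, h⟩
  obtain ⟨ua, ub, uc, ud, hQ, hma, hmc, hm⟩ := exists_quad hU hD hS hn hι h2
  obtain ⟨e, F⟩ := exists_fr4 hn h2 hQ
  rcases hm with ⟨hmb, hmd⟩ | ⟨hτ, hmb, hmd⟩
  · exact case_plus hU hD hS hsol hn h2 F hma hmb hmc hmd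
  · refine case_minus hU hD hS hsol hn h2 F hma hmb hmc hmd hτ ?_ ?_ ?_ hι2
    · rintro rfl
      rw [mul_zero] at hι
      exact one_ne_zero (α := K) (by linear_combination hι)
    · rintro rfl
      rw [one_mul] at hι
      exact h11 hι
    · rintro rfl
      apply h11
      linear_combination hι

end four

end Cfsg.Agent.H801.FC
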